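import Cfsg.Agent.H3.Chr
import Cfsg.Agent.H1.Frob
import Cfsg.Agent.H1.Misc
import Cfsg.Agent.H1.Cores
import Cfsg.Agent.S0200

/-!
H3.Gag: characters vanishing on all but two classes (Gagola).
-/

set_option autoImplicit false
open Cfsg
open scoped ComplexConjugate

namespace H3

universe u
variable {G : Type u} [Group G]

structure Gag (χ : G → ℂ) (N : Subgroup G) : Prop where
  irr : IsIrrCharacter G χ
  supp : ∀ g, χ g ≠ 0 ↔ g ∈ N
  ne : N ≠ ⊥
  ker : ∀ ψ, IsIrrCharacter G ψ → ψ ≠ χ → ∀ n ∈ N, ψ n = ψ 1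
  tr : ∀ x ∈ N, ∀ y ∈ N, x ≠ 1 → y ≠ 1 → IsConj x y

theorem exists_gag [Finite G] (hG : 2 < Nat.card G) {χ : G → ℂ} (hχ : IsIrrCharacter G χ)
    (h : Nat.card {C : ConjClasses G // ∃ g ∈ C.carrier, χ g ≠ 0} = 2) :
    ∃ N : Subgroup G, N.Normal ∧ Gag χ N := by
  classical
  have := Fintype.ofFinite G
  have h1 := irr_one_ne_zero hχ
  obtain ⟨⟨C, z, hz, hz0⟩, a, b⟩ := (Nat.card_eq_two_iff' ⟨ConjClasses.mk 1, 1,
    ConjClasses.mem_carrier_mk, h1⟩).1 h
  obtain rfl := ConjClasses.mem_carrier_iff_mk_eq.1 hz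
  have hz1 : z ≠ 1 := fun e => a (by simp [e])
  have hs : ∀ g, χ g ≠ 0 → g ≠ 1 → IsConj z g := fun g h0 hg =>
    (ConjClasses.mk_eq_mk_iff_isConj.1 (congrArg Subtype.val (b ⟨ConjClasses.mk g, g,
      ConjClasses.mem_carrier_mk, h0⟩ fun e => hg (isConj_one_left.1
        (ConjClasses.mk_eq_mk_iff_isConj.1 (congrArg Subtype.val e)))))).symm
  have key0 : ∀ ψ, IsIrrCharacter G ψ → ψ 1 * conj (χ 1) +
      (Subgroup.centralizer ({z} : Set G)).index * (ψ z * conj (χ z)) =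
      ∑ g, ψ g * conj (χ g) := fun ψ hψ => by
    rw [show ψ z * conj (χ z) = (ψ * fun g => conj (χ g)) z from rfl,
      ← sum_classInd_mul z (class_mul (irr_class hψ) (class_conj (irr_class hχ))),
      ← Finset.add_sum_erase _ _ (Finset.mem_univ 1), ← Finset.add_sum_erase _
        (fun g => ψ g * conj (χ g)) (Finset.mem_univ 1)]
    have : classInd z 1 = 0 := if_neg fun h => hz1 (isConj_one_left.1 h)
    rw [this, zero_mul, zero_add]
    refine congrArg _ (Finset.sum_congr rfl fun g hg => ?_)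
    by_cases h0 : χ g = 0
    · simp [h0]
    · rw [classInd, if_pos (hs g h0 (Finset.ne_of_mem_erase hg)), one_mul]; rfl
  have key : ∀ ψ, IsIrrCharacter G ψ → ψ ≠ χ → ψ 1 * conj (χ 1) +
      (Subgroup.centralizer ({z} : Set G)).index * (ψ z * conj (χ z)) = 0 := fun ψ hψ hn => by
    have e := irr_inner_ne hψ hχ hn
    rw [classInner, mul_eq_zero, or_iff_right (inv_ne_zero (card_ne_zero' G))] at e
    rw [key0 ψ hψ, e]
  have hne : (fun _ => 1) ≠ χ := fun e => by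
    have a := key0 _ hχ
    simp only [← e, map_one, mul_one, Finset.sum_const, Finset.card_univ, nsmul_eq_mul,
      ← Nat.card_eq_fintype_card] at a
    have a' : 1 + (Subgroup.centralizer ({z} : Set G)).index = Nat.card G := by exact_mod_cast a
    have := (Nat.dvd_add_left dvd_rfl).1 (a' ▸ (Subgroup.centralizer ({z} : Set G)).index_dvd_card)
    have := Nat.le_of_dvd one_pos this
    omega
  have hk : ∀ ψ, IsIrrCharacter G ψ → ψ ≠ χ → ψ z = ψ 1 := fun ψ hψ hn => by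
    have a := key ψ hψ hn
    have b := key _ isIrr_one hne
    have c : conj (χ 1) ≠ 0 := by simpa using h1
    apply mul_right_cancel₀ c
    linear_combination ψ z * b - a
  let N : Subgroup G := ⨅ ψ : {ψ // IsIrrCharacter G ψ ∧ ψ ≠ χ}, charKer ψ.1
  have hN : ∀ g, g ∈ N ↔ ∀ ψ, IsIrrCharacter G ψ → ψ ≠ χ → ψ g = ψ 1 := fun g => by
    simp only [N, Subgroup.mem_iInf, Subtype.forall, and_imp]
    exact forall₃_congr fun ψ a _ => mem_charKer (irr_char a) g
  have h3 : ∀ g, χ g ≠ 0 ↔ g ∈ N := fun g => ⟨fun h0 => by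
    by_cases hg : g = 1
    · exact hg ▸ N.one_mem
    exact (hN g).2 fun ψ a b => (class_isConj (irr_class a) (hs g h0 hg)).symm.trans (hk ψ a b),
    fun hg h0 => h1 (by
      rwa [isConj_one_left.1 (isConj_of_zero_or_eq (g := g) (z := 1) fun ψ a => by
        by_cases e : ψ = χ
        · exact Or.inl (e ▸ h0)
        · exact Or.inr ((hN g).1 hg ψ a e).symm)] at h0)⟩
  refine ⟨N, ⟨fun n hn g => (h3 _).1 ?_⟩, hχ, h3, fun e => hz1 ?_, fun ψ a b n hn =>
    (hN n).1 hn ψ a b, fun x a y b c d => (hs x ((h3 x).2 a) c).symm.trans (hs y ((h3 y).2 b) d)⟩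
  · rw [irr_class hχ]; exact (h3 n).2 hn
  · exact Subgroup.mem_bot.1 (e ▸ (h3 z).1 hz0)

namespace Gag

variable [Finite G] {χ : G → ℂ} {N : Subgroup G} (h : Gag χ N)
include h

theorem camina {g n : G} (hg : g ∉ N) (hn : n ∈ N) : IsConj g (n * g) :=
  isConj_of_zero_or_eq fun ψ a => by
    by_cases e : ψ = χ
    · exact Or.inl (e ▸ of_not_not fun c => hg ((h.supp g).1 c))
    · exact Or.inr (char_ker_mul (irr_char a) (h.ker ψ a e n hn) g)

theorem le_of_normal (K : Subgroup G) [hK : K.Normal] (h0 : K ≠ ⊥) : N ≤ K := by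
  by_cases h1 : ∃ x ∈ K, x ∈ N ∧ x ≠ 1
  · obtain ⟨x, a, b, c⟩ := h1
    intro y hy
    by_cases e : y = 1
    · exact e ▸ K.one_mem
    obtain ⟨g, rfl⟩ := isConj_iff.1 (h.tr x b y hy c e)
    exact hK.conj_mem x a g
  push Not at h1
  have hz : ∀ x ∈ K, x ≠ 1 → χ x = 0 := fun x a b =>
    of_not_not fun c => b (h1 x a ((h.supp x).1 c))
  obtain ⟨x, a, b⟩ := H1.exists_mem_ne_one h0
  have := Fintype.ofFinite K
  have e := sum_coset_eq_zero K h.irr ⟨x, a, hz x a b ▸ (irr_one_ne_zero h.irr).symm⟩ 1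
  rw [Finset.sum_eq_single 1 (fun y _ hy => by
    rw [mul_one]; exact hz y y.2 fun e => hy (Subtype.ext e)) (by simp)] at e
  exact absurd (by simpa using e) (irr_one_ne_zero h.irr)

theorem faithful (g : G) (e : χ g = χ 1) : g = 1 := by
  by_contra c
  have := charKer_normal (irr_class h.irr)
  have h1 := h.le_of_normal (charKer χ) fun e' =>
    c (Subgroup.mem_bot.1 (e' ▸ (mem_charKer (irr_char h.irr) g).2 e))
  obtain ⟨x, a, b⟩ := H1.exists_mem_ne_one h.ne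
  obtain ⟨ψ, c, d⟩ := exists_irr_ne_of_ne_one b
  by_cases e : ψ = χ
  · exact d (e ▸ (mem_charKer (irr_char h.irr) x).1 (h1 a))
  · exact d (h.ker ψ c e x a)

theorem eq_of_faithful {ψ : G → ℂ} (hψ : IsIrrCharacter G ψ) (hf : ∀ g, ψ g = ψ 1 → g = 1) :
    ψ = χ := by
  obtain ⟨x, a, b⟩ := H1.exists_mem_ne_one h.ne
  exact of_not_not fun e => b (hf x (h.ker ψ hψ e x a))

theorem elem [N.Normal] : ∃ p : ℕ, p.Prime ∧ IsElementaryAbelian p N := by
  obtain ⟨p, hp, hd⟩ := Nat.exists_prime_and_dvd (mt N.card_eq_one.1 h.ne)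
  obtain ⟨x, a, b⟩ := H1.exists_mem_orderOf_eq_prime hp hd
  have h1 : ∀ y ∈ N, y ^ p = 1 := fun y hy => by
    by_cases e : y = 1
    · simp [e]
    obtain ⟨g, rfl⟩ := isConj_iff.1 (h.tr x a y hy (H1.ne_one_of_orderOf_prime hp b) e)
    rw [conj_pow, ← b, pow_orderOf_eq_one]; simp
  have : Fact p.Prime := ⟨hp⟩
  have h2 : IsPGroup p N := fun y => ⟨1, Subtype.ext (by simpa using h1 y y.2)⟩
  have : Nontrivial N := (Subgroup.nontrivial_iff_ne_bot N).2 h.ne
  have h3 := h.le_of_normal ((Subgroup.center N).map N.subtype) fun e =>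
    (Subgroup.nontrivial_iff_ne_bot _).1 h2.center_nontrivial
      ((Subgroup.map_eq_bot_iff_of_injective _ N.subtype_injective).1 e)
  refine ⟨p, hp, H1.isMulCommutative_of_comm fun x a y b => ?_, h1⟩
  obtain ⟨y, c, rfl⟩ := h3 b
  exact congrArg Subtype.val (Subgroup.mem_center_iff.1 c ⟨x, a⟩)

theorem comm [N.Normal] {x y : G} (a : x ∈ N) (b : y ∈ N) : x * y = y * x :=
  H1.comm_of_mem h.elem.choose_spec.2.1 a b

theorem index_cent [hN : N.Normal] {x : G} (a : x ∈ N) (b : x ≠ 1) :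
    (Subgroup.centralizer ({x} : Set G)).index + 1 = Nat.card N := by
  rw [H1.index_centralizer_eq_card, show {y | IsConj x y} = (N : Set G) \ {1} from Set.ext fun y =>
    ⟨fun c => ⟨by obtain ⟨g, rfl⟩ := isConj_iff.1 c; exact hN.conj_mem x a g,
      fun e => b (isConj_one_left.1 (Set.mem_singleton_iff.1 e ▸ c))⟩,
      fun c => h.tr x a y c.1 b c.2⟩, Nat.card_coe_set_eq,
    Set.ncard_diff_singleton_add_one N.one_mem]
  rfl

theorem card_cent [hN : N.Normal] {x : G} (hx : x ∉ N) :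
    Nat.card (Subgroup.centralizer ({x} : Set G)) =
      Nat.card (Subgroup.centralizer ({(x : G ⧸ N)} : Set (G ⧸ N))) := by
  have h1 := H1.card_comap_mk' N (Subgroup.centralizer ({(x : G ⧸ N)} : Set (G ⧸ N)))
  set C := (Subgroup.centralizer ({(x : G ⧸ N)} : Set (G ⧸ N))).comap (QuotientGroup.mk' N)
  have hC : ∀ g, g ∈ C ↔ g * x * g⁻¹ * x⁻¹ ∈ N := fun g => by
    rw [Subgroup.mem_comap, ← QuotientGroup.eq_one_iff (N := N),
      Subgroup.mem_centralizer_singleton_iff]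
    simp only [QuotientGroup.mk'_apply, QuotientGroup.mk_mul, QuotientGroup.mk_inv,
      mul_inv_eq_iff_eq_mul, one_mul]
  rw [← H1.card_mul_relIndex (H := Subgroup.centralizer ({x} : Set G)) fun g hg => (hC g).2 (by
    rw [Subgroup.mem_centralizer_singleton_iff.1 hg]; simpa using N.one_mem),
    H1.relIndex_centralizer_eq_card, mul_comm] at h1
  have : Nat.card {y : G | ∃ g ∈ C, g * x * g⁻¹ = y} = Nat.card N := by
    refine Nat.card_congr ⟨fun y => ⟨y * x⁻¹, ?_⟩, fun n => ⟨n * x, ?_⟩, fun y => by simp,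
      fun y => by simp⟩
    · obtain ⟨_, g, a, rfl⟩ := y; exact (hC g).1 a
    · obtain ⟨g, a⟩ := isConj_iff.1 (h.camina hx n.2)
      exact ⟨g, (hC g).2 (by simp [a]), a⟩
  rwa [this, mul_right_inj' Nat.card_pos.ne'] at h1

theorem inertia_index [N.Normal] {μ : N → ℂ} (hμ : IsIrrCharacter N μ) (h1 : μ ≠ fun _ => 1) :
    (inertia N μ).index + 1 = Nat.card N := by
  classical
  have := Fintype.ofFinite G
  have := Fintype.ofFinite N
  have key : ∀ ν, IsIrrCharacter N ν → ν ≠ (fun _ => 1) → classInner (fun n : N => χ n) ν ≠ 0 :=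
    fun ν a b => by
    obtain ⟨ψ, c, d⟩ := exists_irr_over N a
    refine of_not_not (fun e : ψ ≠ χ => d ?_) ▸ d
    rw [show (fun n : N => ψ n) = ψ 1 • fun _ => 1 from funext fun n => by
      simp [h.ker ψ c e n n.2], inner_smul_left, irr_inner_ne isIrr_one a b.symm, mul_zero]
  have h2 := sum_deg_sq (G := N)
  rw [Finset.sum_congr rfl fun ν _ => by
    rw [deg_of_eq (n := 1) ((irr_degree_one_of_comm ν.2 fun a b => Subtype.ext
      (h.comm a.2 b.2)).trans Nat.cast_one.symm)]] at h2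
  rw [← card_cjOrbit, ← h2, show cjOrbit N μ = (Finset.univ.image
    (Subtype.val : IrrCharacter N → _)).erase fun _ => 1 from Finset.ext fun ν => ?_,
    Finset.card_erase_add_one (a := fun _ => 1)
      (Finset.mem_image.2 ⟨⟨_, isIrr_one⟩, Finset.mem_univ _, rfl⟩),
    Finset.card_image_of_injective _ Subtype.val_injective]
  · simp
  rw [mem_cjOrbit, Finset.mem_erase, Finset.mem_image]
  refine ⟨?_, fun ⟨a, ν', _, b⟩ => cj_of_inner_ne_zero N h.irr hμ (b ▸ ν'.2) (key μ hμ h1)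
    (key ν (b ▸ ν'.2) a)⟩
  rintro ⟨g, rfl⟩
  refine ⟨fun e => h1 ?_, ⟨_, irr_cj N hμ g⟩, Finset.mem_univ _, rfl⟩
  rw [← cj_one N μ, ← mul_inv_cancel g, ← cj_cj, e]

variable {p : ℕ} [hp : Fact p.Prime] (hN : IsPGroup p N)
include hN

theorem dvd_card : p ∣ Nat.card N := by
  have : Nontrivial N := (Subgroup.nontrivial_iff_ne_bot N).2 h.ne
  obtain ⟨n, hn, e⟩ := hN.nontrivial_iff_card.1 inferInstance
  exact e ▸ dvd_pow_self p hn.ne'

theorem not_dvd {d : ℕ} (e : d + 1 = Nat.card N) : ¬ p ∣ d := fun c =>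
  hp.out.one_lt.ne' (Nat.dvd_one.1 ((Nat.dvd_add_right c).1 (e ▸ h.dvd_card hN)))

theorem cent_p {x : G} (a : x ∈ N) (b : x ≠ 1) :
    IsPGroup p (Subgroup.centralizer ({x} : Set G)) := by
  refine H1.isPGroup_of_forall_orderOf fun g hg => ?_
  obtain ⟨u, hu, y, hy, e, ⟨k, c⟩, d⟩ := H1.exists_p_part p g
  by_cases h1 : y = 1
  · exact ⟨k, by rw [e, h1, mul_one, c]⟩
  have hc : Commute x y :=
    (Subgroup.mem_centralizer_singleton_iff.1 (Subgroup.zpowers_le.2 hg hy)).symm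
  have hd : ∀ z ∈ N, z ≠ 1 → p ∣ orderOf z := fun z a b => by
    obtain ⟨j, e⟩ := H1.exists_orderOf_eq_pow hN a
    exact e ▸ dvd_pow_self p fun c => b (orderOf_eq_one_iff.1 (by simp [e, c]))
  obtain ⟨j, hj⟩ := H1.exists_orderOf_eq_pow hN a
  obtain ⟨t, ht⟩ := isConj_iff.1 (h.camina (fun c => d (hd y c h1)) a)
  refine absurd ?_ d
  rw [← H1.orderOf_conj t, ht, hc.orderOf_mul_eq_mul_orderOf_of_coprime
    (hj ▸ ((Nat.Prime.coprime_iff_not_dvd hp.out).2 d).pow_left j)]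
  exact (hd x a b).mul_right _

theorem exists_sylow [N.Normal] {T : Subgroup G} (e : T.index + 1 = Nat.card N) :
    ∃ P : Sylow p G, T = P := by
  obtain ⟨x, a, b⟩ := H1.exists_mem_ne_one h.ne
  obtain ⟨k, hk⟩ := (h.cent_p hN a b).exists_card_eq
  have h1 := T.card_mul_index
  rw [← (Subgroup.centralizer ({x} : Set G)).card_mul_index,
    Nat.add_right_cancel ((h.index_cent a b).trans e.symm),
    mul_left_inj' Subgroup.index_ne_zero_of_finite, hk] at h1
  exact ⟨(IsPGroup.of_card h1).toSylow (h.not_dvd hN e), rfl⟩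

theorem card_le [N.Normal] (P : Sylow p G) {Z : Subgroup G} {y : G} (hy : y ∉ N)
    (hZ : ∀ g ∈ (P : Subgroup G), g * y * g⁻¹ * y⁻¹ ∈ Z) : Nat.card N ≤ Nat.card Z := by
  have h1 : Nat.card ((Subgroup.centralizer ({y} : Set G)) ⊓ P : Subgroup G) * Nat.card N ∣
      Nat.card G := by
    rw [← Subgroup.card_mul_index N, mul_comm]
    exact Nat.mul_dvd_mul_left _ ((Subgroup.card_dvd_of_le inf_le_left).trans
      (h.card_cent hy ▸ Subgroup.card_subgroup_dvd_card _))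
  obtain ⟨a, ha⟩ := (P.2.to_inf_right (H := Subgroup.centralizer ({y} : Set G))).exists_card_eq
  obtain ⟨b, hb⟩ := hN.exists_card_eq
  rw [ha, hb, ← pow_add] at h1
  have h2 := Nat.le_of_dvd Nat.card_pos (P.pow_dvd_card_of_pow_dvd_card h1)
  rw [pow_add, ← ha, ← hb, ← H1.card_inf_mul_relIndex (Subgroup.centralizer ({y} : Set G)) P,
    H1.relIndex_centralizer_eq_card] at h2
  refine (Nat.le_of_mul_le_mul_left h2 Nat.card_pos).trans ?_
  exact Nat.card_le_card_of_injective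
    (fun x => ⟨x * y⁻¹, by obtain ⟨_, g, c, rfl⟩ := x; exact hZ g c⟩) fun u v e =>
      Subtype.ext (mul_right_cancel (congrArg Subtype.val e))

theorem cent_eq [N.Normal] (h0 : N = pCore p G) : Subgroup.centralizer (N : Set G) ≤ N := by
  obtain ⟨x, a, b⟩ := H1.exists_mem_ne_one h.ne
  exact (H1.le_pCore ((h.cent_p hN a b).to_le (Subgroup.centralizer_le (by simpa)))).trans h0.ge

theorem fpf {s : G} (hs : ¬ p ∣ orderOf s) (h1 : s ≠ 1) : N ⊓ Subgroup.centralizer {s} = ⊥ := by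
  rw [eq_bot_iff]
  rintro x ⟨a, b⟩
  by_contra c
  obtain ⟨k, hk⟩ := H1.exists_orderOf_eq_pow (h.cent_p hN a c) (x := s)
    (Subgroup.mem_centralizer_singleton_iff.2 (Subgroup.mem_centralizer_singleton_iff.1 b).symm)
  exact hs (hk ▸ dvd_pow_self p fun e => h1 (orderOf_eq_one_iff.1 (by simp [hk, e])))

theorem cent_le [hn : N.Normal] (h0 : N = pCore p G) {z : G} (a : z ∈ N) (b : z ≠ 1) :
    Subgroup.centralizer ({z} : Set G) ≤ N := by
  intro y hy
  by_contra c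
  have hC := h.cent_eq hN h0
  have nm : ∀ s : G, s ∈ Subgroup.normalizer (N : Set G) := fun s =>
    Subgroup.le_normalizer_of_normal (Subgroup.mem_top s)
  rcases hp.out.eq_two_or_odd' with rfl | ho
  · have hy' : ((y : G ⧸ N)) ≠ 1 := fun e => c ((QuotientGroup.eq_one_iff y).1 e)
    obtain ⟨k, hk⟩ := H1.exists_orderOf_eq_pow (h.cent_p hN a b) hy
    obtain ⟨j, -, hj⟩ := (Nat.dvd_prime_pow hp.out).1
      (hk ▸ orderOf_map_dvd (QuotientGroup.mk' N) y)
    obtain ⟨t, -, ht⟩ := H1.exists_pow_orderOf_eq (x := (y : G ⧸ N)) (d := 2)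
      (hj ▸ dvd_pow_self 2 fun e => hy' (orderOf_eq_one_iff.1 (by simpa [e] using hj)))
    obtain ⟨w, w1, w2, w3⟩ := Cfsg.Agent.S0200.result t ht fun M _ hM e => by
      have := H1.le_pCore hM e
      rw [← H1.map_pCore_quotient N hN, ← h0, (Subgroup.map_eq_bot_iff _).2 (by simp),
        Subgroup.mem_bot] at this
      simp [this] at ht
    obtain ⟨t, rfl⟩ := QuotientGroup.mk_surjective t
    obtain ⟨w, rfl⟩ := QuotientGroup.mk_surjective w
    obtain ⟨u, hu, v, hv, e, ⟨i, u1⟩, v1⟩ := H1.exists_p_part 2 w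
    have hu1 : (u : G ⧸ N) = 1 := by
      obtain ⟨m, rfl⟩ := hu
      refine orderOf_eq_one_iff.1 (Nat.eq_one_of_dvd_coprimes (w2.coprime_two_right.pow_right i)
        (orderOf_dvd_of_mem_zpowers ⟨m, rfl⟩) (u1 ▸ orderOf_map_dvd (QuotientGroup.mk' N) _))
    have hv1 : (w : G ⧸ N) = v := by rw [e, QuotientGroup.mk_mul, hu1, one_mul]
    rw [hv1] at w1 w3
    have hv2 : v ≠ 1 := fun e => w1 (by simp [e])
    obtain ⟨x, x1, x2⟩ := H1.exists_conj_eq_mul_of_fpf (nm v⁻¹) (h.fpf hN (by rwa [orderOf_inv])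
      (inv_ne_one.2 hv2)) (k := t * v * t⁻¹ * v) ((QuotientGroup.eq_one_iff _).1 (by
        simp only [QuotientGroup.mk_mul, QuotientGroup.mk_inv, w3, inv_mul_cancel]))
    have x3 : (x : G ⧸ N) = 1 := (QuotientGroup.eq_one_iff _).2 x1
    have s1 : x⁻¹ * t ∉ N := fun e => by
      rw [(QuotientGroup.eq_one_iff _).2 ((N.mul_mem_cancel_left (N.inv_mem x1)).1 e)] at ht
      simp at ht
    set s := x⁻¹ * t with hs
    have s2 : s * v * s⁻¹ = v⁻¹ := by
      rw [mul_inv_cancel_right] at x2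
      rw [hs, show x⁻¹ * t * v * (x⁻¹ * t)⁻¹ = x⁻¹ * (t * v * t⁻¹) * x by group, x2]; group
    have s3 : s * s = 1 := Subgroup.mem_bot.1 (h.fpf hN v1 hv2 ▸ Subgroup.mem_inf.2
      ⟨(QuotientGroup.eq_one_iff _).1 (by
        simp only [hs, QuotientGroup.mk_mul, QuotientGroup.mk_inv, x3, inv_one, one_mul]
        rw [← pow_two, ← ht, pow_orderOf_eq_one]), Subgroup.mem_centralizer_singleton_iff.2 (by
        rw [show s * s * v = s * (s * v * s⁻¹) * s⁻¹ * (s * s) by group, s2,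
          show s * v⁻¹ * s⁻¹ = (s * v * s⁻¹)⁻¹ by group, s2, inv_inv])⟩)
    refine s1 (hC fun n hn => ?_)
    obtain ⟨g, hg⟩ := isConj_iff.1 (h.camina s1 hn)
    obtain ⟨q, q1, -, q2⟩ := h.elem
    have q3 : n ^ 2 = 1 := by
      obtain ⟨i, hi⟩ := H1.exists_orderOf_eq_pow hN hn
      rcases (Nat.dvd_prime q1).1 (orderOf_dvd_of_pow_eq_one (q2 n hn)) with e | e
      · simp [orderOf_eq_one_iff.1 e]
      · rw [← (Nat.prime_dvd_prime_iff_eq q1 Nat.prime_two).1
          (q1.dvd_of_dvd_pow (e ▸ hi).dvd)]; exact q2 n hn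
    have q4 : n * s * (n * s) = 1 := by
      rw [← hg, show g * s * g⁻¹ * (g * s * g⁻¹) = g * (s * s) * g⁻¹ by group, s3]; group
    calc n * s = (n * s)⁻¹ := eq_inv_of_mul_eq_one_left q4
      _ = s * n := by
        rw [mul_inv_rev, inv_eq_of_mul_eq_one_left s3, inv_eq_of_mul_eq_one_left (pow_two n ▸ q3)]
  obtain ⟨k, hk⟩ := hN.exists_card_eq
  obtain ⟨t, ht⟩ := exists_prime_orderOf_dvd_card' (G := G) 2 ((even_iff_two_dvd.1 (by
    have := h.index_cent a b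
    rw [hk] at this
    exact Nat.not_odd_iff_even.1 fun c => Nat.not_even_iff_odd.2 (ho.pow (n := k))
      (this ▸ c.add_one))).trans (Subgroup.centralizer ({z} : Set G)).index_dvd_card)
  have t1 := h.fpf hN (s := t) (ht ▸ fun e => by
    rw [(Nat.prime_dvd_prime_iff_eq hp.out Nat.prime_two).1 e] at ho; exact absurd ho (by decide))
    (H1.ne_one_of_orderOf_prime Nat.prime_two ht)
  have t2 : ∀ n ∈ N, t * n * t⁻¹ = n⁻¹ := fun n hn => H1.conj_eq_inv_of_fpf (nm t) t1 (by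
    rw [← pow_two, ← ht, pow_orderOf_eq_one]; exact Subgroup.one_mem _) hn
  have t3 : ∀ g : G, g * t * g⁻¹ * t⁻¹ ∈ N := fun g => hC fun n hn' => by
    have e1 := t2 _ (hn.conj_mem _ (hn.conj_mem n hn' t⁻¹) g⁻¹)
    have e2 := t2 _ (hn.conj_mem n hn' t⁻¹)
    refine (mul_inv_eq_iff_eq_mul.1 ?_).symm
    calc _ = g * (t * (g⁻¹ * (t⁻¹ * n * t⁻¹⁻¹) * g⁻¹⁻¹) * t⁻¹) * g⁻¹ := by group
      _ = (t⁻¹ * n * t⁻¹⁻¹)⁻¹ := by rw [e1]; group
      _ = n := by rw [← e2]; group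
  have t4 : ∀ g : G, ∃ x ∈ N, x * g ∈ Subgroup.centralizer ({t} : Set G) := fun g => by
    obtain ⟨x, x1, x2⟩ := H1.exists_conj_eq_mul_of_fpf (nm t) t1 (t3 g)
    refine ⟨x⁻¹, N.inv_mem x1, Subgroup.mem_centralizer_singleton_iff.2 ?_⟩
    rw [inv_mul_cancel_right] at x2
    rw [show x⁻¹ * g * t = x⁻¹ * (g * t * g⁻¹) * g by group, x2]; group
  obtain ⟨x, x1, x2⟩ := t4 y
  have s1 : x * y ∉ N := fun e => c ((N.mul_mem_cancel_left x1).1 e)
  have s2 : x * y * z = z * (x * y) := by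
    rw [mul_assoc, Subgroup.mem_centralizer_singleton_iff.1 hy, ← mul_assoc, h.comm x1 a, mul_assoc]
  set s := x * y
  have hsurj : Function.Surjective fun m : N => (⟨m * s * (m : G)⁻¹ * s⁻¹, by
      simpa [mul_assoc] using N.mul_mem m.2 (hn.conj_mem _ (N.inv_mem m.2) s)⟩ : N) := fun n => by
    obtain ⟨g, hg⟩ := isConj_iff.1 (h.camina s1 n.2)
    obtain ⟨m, m1, m2⟩ := t4 g
    have : m * g * s * (m * g)⁻¹ * s⁻¹ = 1 := Subgroup.mem_bot.1 (t1 ▸ Subgroup.mem_inf.2 ⟨by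
      rw [show m * g * s * (m * g)⁻¹ * s⁻¹ = m * (g * s * g⁻¹) * m⁻¹ * s⁻¹ by group, hg]
      simpa [mul_assoc] using N.mul_mem (N.mul_mem m1 n.2) (hn.conj_mem _ (N.inv_mem m1) s),
      Subgroup.mul_mem _ (Subgroup.mul_mem _ (Subgroup.mul_mem _ m2 x2) (Subgroup.inv_mem _ m2))
        (Subgroup.inv_mem _ x2)⟩)
    refine ⟨⟨m⁻¹, N.inv_mem m1⟩, Subtype.ext ?_⟩
    change m⁻¹ * s * m⁻¹⁻¹ * s⁻¹ = n
    calc _ = m⁻¹ * (m * g * s * (m * g)⁻¹) * m⁻¹⁻¹ * s⁻¹ := by rw [mul_inv_eq_one.1 this]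
      _ = g * s * g⁻¹ * s⁻¹ := by group
      _ = n := by rw [hg]; group
  exact b (congrArg Subtype.val (Finite.injective_iff_surjective.2 hsurj (a₁ := ⟨z, a⟩) (a₂ := 1)
    (Subtype.ext (by simp [← s2]))))

end Gag

theorem gag_of [Finite G] (hG : 2 < Nat.card G) {χ : G → ℂ} (hχ : IsIrrCharacter G χ)
    (h : Nat.card {C : ConjClasses G // ∃ g ∈ C.carrier, χ g ≠ 0} = 2) {N : Subgroup G}
    (hN : ∀ g, g ∈ N ↔ χ g ≠ 0) : Gag χ N := by
  obtain ⟨M, -, a⟩ := exists_gag hG hχ h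
  rwa [show N = M from Subgroup.ext fun g => (hN g).trans (a.supp g)]

end H3
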