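import Cfsg.Agent.H3.Dih
import Cfsg.Agent.H3.Chr
import Cfsg.Agent.S0948

/-! H3.K4: Klein four Sylow 2-subgroups centralized by the centralizer of an involution. -/

set_option autoImplicit false
open Cfsg Subgroup

namespace H3

universe u
variable {G : Type u} [Group G] [Finite G]

theorem k4_arith {a b c n : ℕ} {e : ℤ} (he : e = 1 ∨ e = -1) (ha : 0 < a) (hb : 0 < b)
    (h1 : (4 : ℤ) ∣ b - e) (h2 : (4 : ℤ) ∣ c + 1) (h3 : (1 : ℤ) + a + e * b - c = 0)
    (h : (3 * n : ℚ) * (1 + (1 / a + (e / b + -1 / c))) = 8) : n ≤ 5 := by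
  by_contra hn
  have n6 : (6 : ℚ) ≤ n := by exact_mod_cast (by omega : 6 ≤ n)
  have a0 : (0 : ℚ) < 1 / a := by positivity
  have key : ∀ m k : ℕ, 0 < k → k ≤ m → (1 : ℚ) / m ≤ 1 / k := fun m k h0 hk =>
    one_div_le_one_div_of_le (by exact_mod_cast h0) (by exact_mod_cast hk)
  have c3 := key c 3 (by omega) (by omega)
  rw [neg_div] at h
  rcases he with rfl | rfl
  · have b0 : (0 : ℚ) < 1 / b := by positivity
    push_cast at h c3
    nlinarith
  · have b3 := key b 3 (by omega) (by omega)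
    push_cast at h c3 b3
    rw [neg_div] at h
    by_cases b7 : 7 ≤ b
    · have := key b 7 (by omega) b7
      push_cast at this
      nlinarith
    by_cases c7 : 7 ≤ c
    · have := key c 7 (by omega) c7
      push_cast at this
      nlinarith
    obtain rfl : b = 3 := by omega
    obtain rfl : c = 3 := by omega
    obtain rfl : a = 5 := by omega
    push_cast at h
    linarith

theorem k4_le (P : Sylow 2 G) (hP : IsKleinFour (P : Subgroup G))
    (hone : ∀ s t : G, orderOf s = 2 → orderOf t = 2 → IsConj s t) {t : G} (ht : orderOf t = 2)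
    (hC : centralizer {t} = centralizer ((P : Subgroup G) : Set G)) :
    (normalizer ((P : Subgroup G) : Set G)).index ≤ 5 ∧ Nat.card G =
      Nat.card (centralizer ((P : Subgroup G) : Set G)) * 3 * (normalizer ((P : Subgroup G) : Set G)).index := by
  obtain ⟨M, hM⟩ := H4.exists_isPModular Nat.prime_two
  obtain ⟨a, b, c, e, he, k1, k2, k3, k4, k5, hB, hv, -, d2, d3, hr⟩ := Cfsg.Agent.S0948.result M hM P hP hone
  obtain ⟨v1, v2, v3⟩ := hv t ht
  have k6 : c.1 ≠ fun _ => 1 := fun e => by rw [e] at v3; norm_num at v3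
  have h5 := H4.k4_order hM hP hone ht
  have h6 := hr 1 (by simp)
  have hG : Nat.card G = Nat.card (centralizer ((P : Subgroup G) : Set G)) * 3 *
      (normalizer ((P : Subgroup G) : Set G)).index := by
    rw [← (H4.k4_fusion hM hP).1 hone, H1.card_mul_relIndex (centralizer_le_normalizer _), card_mul_index]
  refine ⟨k4_arith he (deg_pos a.2) (deg_pos b.2) d2 d3 ?_ ?_, hG⟩
  · rw [ideg, ideg, ideg] at h6; exact_mod_cast h6
  · rw [H4.sum_four hB ⟨k1, k2, k6, k3, k4, k5⟩, v1, v2, v3, ideg a, ideg b, ideg c, H4.C1, hC, hG] at h5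
    simp only [H4.triv_apply, div_one] at h5
    have h0 : (Nat.card (centralizer ((P : Subgroup G) : Set G)) : ℂ) ^ 3 ≠ 0 := pow_ne_zero _ (card_ne_zero' _)
    apply Rat.cast_injective (α := ℂ)
    apply mul_right_cancel₀ h0
    push_cast at h5 ⊢
    linear_combination h5

theorem od_of_not_npc (P : Sylow 2 G) (hP : IsKleinFour (P : Subgroup G)) (h : ¬ HasNormalPComplement 2 G) :
    H1.Od (P : Subgroup G) := by
  by_contra ho
  refine h (H1.hasNPC_of_not_od P fun R hR ⟨g, h1, h2, h3⟩ => ?_)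
  rcases hR.eq_or_lt with rfl | hl
  · exact ho ⟨g, h1, h2, h3⟩
  refine h3 (H1.cent_of_isCyclic_two (P.2.to_le hR) ?_ h1 h2)
  have a := H1.card_lt_of_lt hl
  have b := card_dvd_of_le hR
  rw [hP.card_four] at a b
  have c : 0 < Nat.card R := Nat.card_pos
  by_cases e : Nat.card R = 1
  · haveI := (Nat.card_eq_one_iff_unique.1 e).1; infer_instance
  · haveI := Fact.mk Nat.prime_two
    exact isCyclic_of_prime_card (p := 2) (by interval_cases Nat.card R <;> omega)

/-- a self-centralizing-up-to-odd-index Klein four group is Sylow, or the Sylow subgroup has maximal class -/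
theorem k4_syl {x : G} {V : Subgroup G} (hle : V ≤ centralizer {x}) (hK : IsKleinFour V)
    (hodd : ¬ 2 ∣ V.relIndex (centralizer {x})) (hx : x ∈ V) : ∃ S : Sylow 2 G, V ≤ S ∧ ((S : Subgroup G) = V ∨
      ∃ n a b, H1.MC (S : Subgroup G) n a b ∧ ¬ IsConj x (a ^ 2 ^ n)) := by
  obtain ⟨S, hS⟩ := (H1.klein_pg hK).exists_le_sylow
  have hV : H1.IsSylowIn 2 V (centralizer {x}) := ⟨hle, H1.klein_pg hK, hodd⟩
  have e := hV.eq_of_le (S.2.to_le inf_le_left) (le_inf hS hle) inf_le_right
  refine ⟨S, hS, (mc_of_cent S.2 (hS hx) (by rw [e, hK.card_four])).imp (fun h => ?_) ?_⟩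
  · rw [← e, left_eq_inf]
    exact fun y hy => mem_centralizer_singleton_iff.2 (H1.comm_of_mem h hy (hS hx))
  · rintro ⟨n, a, b, h⟩
    refine ⟨n, a, b, h, fun hc => ?_⟩
    obtain ⟨g, hg⟩ := isConj_iff.1 hc.symm
    have := hV.card_dvd (H1.isPGroup_conj_smul g S.2) (H1.conj_smul_le_iff.2 fun y hy => by
      rw [mem_centralizer_singleton_iff, ← hg]
      calc _ = g * (y * a ^ 2 ^ n) * g⁻¹ := by group
        _ = _ := by rw [(h.z_comm hy).eq]; group)
    rw [H1.card_conj_smul, h.card, hK.card_four] at this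
    have h1 := Nat.le_of_dvd (by omega) this
    have h2 := Nat.pow_le_pow_right two_pos (by have := h.pos; omega : 3 ≤ n + 2)
    omega

end H3
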