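import Cfsg.Agent.H3.Ord5
import Cfsg.Agent.H3.Ab5
import Cfsg.Agent.H3.Dih
import Cfsg.Agent.H1.Sol2

/-!
H3.Ord6: simple groups of order 360 and 504.
-/

set_option autoImplicit false
open Cfsg Subgroup Finset
open scoped Classical

namespace H3
open H4

variable {G : Type*} [Group G] [Finite G] [IsSimpleGroup G]

theorem no_six (hG : ¬ IsMulCommutative G) {p s : ℕ} [hp : Fact p.Prime] (h5 : 5 ≤ p) (hn : Nat.card G = p * 72) (hs : p * 72 < s * s)
    (h3 : p ^ 3 ≤ p * 72)
    (hk : ochk (p * 72) p false (fun m e c => ofeas (p * 72) p m e c 3 2 s fun d => !(e == 2 && d == 8)) = false) (g : G) :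
    orderOf g ≠ 6 := fun o => by
  letI := Fintype.ofFinite G
  obtain ⟨P⟩ : Nonempty (Sylow p G) := inferInstance
  have nd : ∀ a b : ℕ, ¬ p ∣ 2 ^ a * 3 ^ b := fun a b h => (hp.out.dvd_mul.1 h).elim
    (fun h => absurd (Nat.le_of_dvd two_pos (hp.out.dvd_of_dvd_pow h)) (by omega))
    fun h => absurd (Nat.le_of_dvd three_pos (hp.out.dvd_of_dvd_pow h)) (by omega)
  have hP : Nat.card P = p := (card_sylow_of P hn (k := 1) (by simp) fun a => by
    rw [pow_succ, pow_one, Nat.mul_dvd_mul_iff_left hp.out.pos] at a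
    exact nd 3 2 a).trans (pow_one p)
  have f : ∀ q : ℕ, q ≠ p → (Nat.card G).factorization q = (72 : ℕ).factorization q := fun q a => by
    rw [hn, Nat.factorization_mul hp.out.ne_zero (by norm_num), Finsupp.add_apply, hp.out.factorization, Finsupp.single_eq_of_ne a,
      zero_add]
  have := ochk_of hG P hP (hn ▸ h3) (three := false) (by simp)
    (F := fun m e c => ofeas (Nat.card G) p m e c 3 2 s fun d => !(e == 2 && d == 8)) fun e t B V r σ T c h hc =>
      h.ofeas_of hG hc Nat.prime_three (by omega) (hn ▸ Dvd.dvd.mul_left (by norm_num) _) (hn ▸ hs) fun v v1 v2 => by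
        by_contra! a
        obtain ⟨rfl, d⟩ : e = 2 ∧ charDegree v.1 = 8 := by simpa using a
        have v0 := mem_erase.2 ⟨v2, v1⟩
        obtain ⟨w, hw⟩ := card_eq_one.1 (show #((V.erase (triv G)).erase v) = 1 by
          rw [card_erase_of_mem v0, card_erase_of_mem h.one, h.cV])
        have w1 := (mem_erase.1 (mem_erase.1 (hw.ge (mem_singleton_self w))).2).2
        have r1 := h.rel_one
        have r2 := h.rel g (o ▸ nd 1 1)
        rw [← add_sum_erase _ _ h.one, ← add_sum_erase _ _ v0, hw, sum_singleton, h.triv_sign.1] at r1 r2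
        rw [deg_triv, d] at r1
        have dw : charDegree w.1 ∣ 72 := (h.dvd w w1).trans ((index_dvd_of_le (le_CS_prime hP)).trans (by
          have := card_mul_index (P : Subgroup G)
          rw [hP, hn] at this
          rw [Nat.eq_of_mul_eq_mul_left hp.out.pos this]))
        have d9 : charDegree w.1 = 9 := (show _ ∨ charDegree w.1 = 7 by
          rcases h.sg v v1 with a | a <;> rcases h.sg w w1 with b | b <;> rw [a, b] at r1 <;> omega).resolve_right fun a => by
            rw [a] at dw; omega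
        rw [eq_zero_of_nu Nat.prime_two v.2 (by rw [f 2 (by omega), nu, d]; decide +kernel) (by rw [o]; norm_num),
          eq_zero_of_nu Nat.prime_three w.2 (by rw [f 3 (by omega), nu, d9]; decide +kernel) (by rw [o]; norm_num)] at r2
        simp [triv] at r2
  rw [hn, hk] at this
  exact Bool.false_ne_true this

omit [IsSimpleGroup G] in
theorem cent_pgroup {t : G} (ht : orderOf t = 2) (h : ∀ q : ℕ, q.Prime → q ≠ 2 → ∀ g : G, orderOf g ≠ 2 * q) :
    IsPGroup 2 (centralizer {t} : Subgroup G) := by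
  haveI : Fact (Nat.Prime 2) := ⟨Nat.prime_two⟩
  refine (IsPGroup.iff_card.2 ⟨_, Nat.eq_prime_pow_of_unique_prime_dvd Nat.card_pos.ne' fun {q} a b => by_contra fun c => ?_⟩)
  haveI := Fact.mk a
  obtain ⟨x, hx⟩ := exists_prime_orderOf_dvd_card' q b
  rw [← Subgroup.orderOf_coe] at hx
  refine h q a c (t * x) ?_
  rw [(show Commute t x from (mem_centralizer_singleton_iff.1 x.2).symm).orderOf_mul_eq_mul_orderOf_of_coprime, ht, hx]
  rw [ht, hx]
  exact (Nat.coprime_primes Nat.prime_two a).2 (Ne.symm c)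

/-- the structure of a Sylow 2-subgroup of order 8 when involution centralizers are 2-groups -/
theorem cit8_di (hG : ¬ IsMulCommutative G) (S : Sylow 2 G) (hS : Nat.card S = 8) (hc : ¬ IsMulCommutative (S : Subgroup G)) :
    ∃ a b, H1.DI (S : Subgroup G) 1 a b := by
  haveI : Fact (Nat.Prime 2) := ⟨Nat.prime_two⟩
  obtain ⟨x, y, e⟩ : ∃ x y : (S : Subgroup G), x * y ≠ y * x := by
    by_contra! a; exact hc ⟨⟨a⟩⟩
  have l : Nat.card ((S : Subgroup G) ⊓ centralizer {(x : G)} : Subgroup G) ≤ 4 := by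
    have a : Nat.card ((S : Subgroup G) ⊓ centralizer {(x : G)} : Subgroup G) ∣ 8 := hS ▸ card_dvd_of_le inf_le_left
    have b : Nat.card ((S : Subgroup G) ⊓ centralizer {(x : G)} : Subgroup G) ≠ 8 := fun b => by
      have := eq_of_le_of_card_ge (inf_le_left : (S : Subgroup G) ⊓ centralizer {(x : G)} ≤ S) (hS.trans b.symm).le
      exact e (Subtype.ext (mem_centralizer_singleton_iff.1 (this.ge y.2).2).symm)
    have := Nat.le_of_dvd (by norm_num) a
    generalize Nat.card ((S : Subgroup G) ⊓ centralizer {(x : G)} : Subgroup G) = n at *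
    interval_cases n <;> omega
  obtain ⟨n, a, b, h⟩ := (mc_of_cent S.isPGroup' x.2 l).resolve_left hc
  obtain rfl : n = 1 := by simpa using Nat.pow_right_injective le_rfl (show 2 ^ (n + 2) = 2 ^ 3 from h.card.symm.trans hS)
  rcases h.dqs with ⟨c, d⟩ | ⟨c, d⟩ | c
  · exact ⟨a, b, h, c, d⟩
  · obtain ⟨-, f1, f2⟩ := simple_facts hG h.oz
    obtain ⟨g, g1, g2⟩ := zstar_conj (H9.syl_top_of_sylow S) f1 h.oz (by rw [f2]; exact H1.two_ne h.oz)
    have o := (orderOf_conj _ g).trans h.oz
    have := h.sq_eq d g1 fun k => g2 (h.eq_z k o)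
    exact (H1.two_ne h.oz (c.symm.trans (this.symm.trans (orderOf_dvd_iff_pow_eq_one.1 o.dvd)))).elim
  · omega

theorem cit8 (hG : ¬ IsMulCommutative G) (S : Sylow 2 G) (hS : Nat.card S = 8)
    (h : ∀ t : G, orderOf t = 2 → IsPGroup 2 (centralizer {t} : Subgroup G)) : ∃ (F : Type) (_ : Field F) (_ : Fintype F),
      (Fintype.card F = 7 ∨ Fintype.card F = 8 ∨ Fintype.card F = 9) ∧ Nonempty (G ≃* Matrix.ProjectiveSpecialLinearGroup (Fin 2) F) := by
  haveI : Fact (Nat.Prime 2) := ⟨Nat.prime_two⟩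
  by_cases hc : IsMulCommutative (S : Subgroup G)
  · obtain ⟨ac, s, hs, -⟩ := ac_of_sylow (fun t ht a b ha hb => by
        obtain ⟨R, hR⟩ := (h t (orderOf_eq_prime (by rw [sq, ht.2]) ht.1)).exists_le_sylow
        have := congrArg (S.equiv R) (hc.1.1 ((S.equiv R).symm ⟨a, hR (mem_centralizer_singleton_iff.2 ha)⟩)
          ((S.equiv R).symm ⟨b, hR (mem_centralizer_singleton_iff.2 hb)⟩))
        simpa using congrArg Subtype.val this) S
      (fun c => hG ⟨⟨(IsSimpleGroup.comm_iff_isSolvable.2 (H1.solvable_of_cyclic_sylow_two S c))⟩⟩) fun n => by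
        rcases n.eq_bot_or_eq_top with e | e
        · have := hS; rw [show Nat.card S = _ from congrArg (fun H : Subgroup G => Nat.card H) e, card_bot] at this; omega
        · exact hG ⟨⟨fun a b => congrArg Subtype.val (hc.1.1 ⟨a, e.ge trivial⟩ ⟨b, e.ge trivial⟩)⟩⟩
    obtain ⟨a, F, _, _, a2, c, ⟨e⟩⟩ := ac.main
    have z := (simple_facts hG (orderOf_eq_prime (by rw [sq, hs.2]) hs.1)).2.2
    haveI : Unique (center G) := z ▸ inferInstance
    have E := e.trans MulEquiv.prodUnique
    refine ⟨F, inferInstance, inferInstance, Or.inr (Or.inl ?_), ⟨E.trans (slPsl F (two_eq_zero (by omega) c))⟩⟩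
    have k := (Nat.card_congr E.toEquiv).trans H5.card_SL2
    obtain ⟨a, rfl⟩ := Nat.exists_eq_add_of_le' (show 1 ≤ a by omega)
    have := card_sylow_of S k (k := a + 1) (by rw [c, mul_assoc]; exact dvd_mul_right _ _) (by
      rw [c, mul_assoc, pow_succ _ (a + 1), Nat.mul_dvd_mul_iff_left (by positivity), Nat.prime_two.dvd_mul, pow_succ]
      have := Nat.one_le_two_pow (n := a)
      omega)
    rw [c, ← this, hS]
  · obtain ⟨a, b, d⟩ := cit8_di hG S hS hc
    have e : centralizer {a ^ 2 ^ 1} = (S : Subgroup G) :=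
      S.is_maximal' (h _ d.oz) fun x hx => mem_centralizer_singleton_iff.2 (d.z_comm hx)
    have f : Dh (S : Subgroup G) := Or.inr ⟨_, _, _, d⟩
    obtain ⟨F, _, _, k, l⟩ := psl_of_cent (e ▸ f) (e ▸ H9.syl_top_of_sylow S) d.oz fun u =>
      f.cj_all (H9.syl_top_of_sylow S) (simple_facts hG d.oz).1 d.oz
    rw [e, show Nat.card (S : Subgroup G) = 8 from hS] at k
    exact ⟨F, _, _, by omega, l⟩

theorem psl_72 (hG : ¬ IsMulCommutative G) {p s : ℕ} [hp : Fact p.Prime] (h5 : 5 ≤ p) (hn : Nat.card G = p * 72) (hs : p * 72 < s * s)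
    (h3 : p ^ 3 ≤ p * 72)
    (hk : ochk (p * 72) p false (fun m e c => ofeas (p * 72) p m e c 3 2 s fun d => !(e == 2 && d == 8)) = false)
    (hk2 : ochk (p * 72) p false (fun m e c => c % 2 == 0 && ofeas (p * 72) p m e c 3 2 s fun _ => true) = false) :
    ∃ (F : Type) (_ : Field F) (_ : Fintype F),
      (Fintype.card F = 7 ∨ Fintype.card F = 8 ∨ Fintype.card F = 9) ∧ Nonempty (G ≃* Matrix.ProjectiveSpecialLinearGroup (Fin 2) F) := by
  haveI : Fact (Nat.Prime 2) := ⟨Nat.prime_two⟩
  letI := Fintype.ofFinite G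
  obtain ⟨S⟩ : Nonempty (Sylow 2 G) := inferInstance
  have po := hp.out.eq_two_or_odd
  refine cit8 hG S (card_sylow_of S hn (k := 3) (Dvd.dvd.mul_left (by norm_num) _) (by omega)) fun t ht =>
    cent_pgroup ht fun q q1 q2 g o => ?_
  have a : q ∣ p * (2 ^ 3 * 3 ^ 2) := (Dvd.intro_left _ o.symm).trans (hn ▸ orderOf_dvd_natCard g)
  rcases q1.dvd_mul.1 a with a | a
  · obtain rfl := (Nat.prime_dvd_prime_iff_eq q1 hp.out).1 a
    obtain ⟨P⟩ : Nonempty (Sylow q G) := inferInstance
    have hP : Nat.card P = q := (card_sylow_of P hn (k := 1) (by simp) fun a => by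
      rw [pow_succ, pow_one, Nat.mul_dvd_mul_iff_left hp.out.pos] at a
      rcases q1.dvd_mul.1 (show q ∣ 2 ^ 3 * 3 ^ 2 from a) with a | a <;> have := Nat.le_of_dvd (by norm_num) (q1.dvd_of_dvd_pow a) <;>
        omega).trans (pow_one q)
    have := ochk_of hG P hP (hn ▸ h3) (three := false) (by simp)
      (F := fun m e c => c % 2 == 0 && ofeas (Nat.card G) q m e c 3 2 s fun _ => true) fun e t B V r σ T c h hc => by
        have := h.ord_dvd (g := g) (by simp [o])
        rw [o, hc, mul_comm 2, Nat.mul_dvd_mul_iff_left q1.pos] at this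
        rw [h.ofeas_of hG hc Nat.prime_three (by omega) (hn ▸ Dvd.dvd.mul_left (by norm_num) _) (hn ▸ hs) fun _ _ _ => rfl]
        simpa using Nat.mod_eq_zero_of_dvd this
    rw [hn, hk2] at this
    exact Bool.false_ne_true this
  · rcases q1.dvd_mul.1 a with a | a
    · exact q2 ((Nat.prime_dvd_prime_iff_eq q1 Nat.prime_two).1 (q1.dvd_of_dvd_pow a))
    · obtain rfl := (Nat.prime_dvd_prime_iff_eq q1 Nat.prime_three).1 (q1.dvd_of_dvd_pow a)
      exact no_six hG h5 hn hs h3 hk g o

end H3
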