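import Mathlib

/-! H3.R19: four-groups in SL(3). -/

namespace H3

open Matrix

variable {F : Type*} [Field F] {a b x y : Matrix (Fin 3) (Fin 3) F}

theorem r19_neg (h2 : (2 : F) ≠ 0) (h : a.det = 1) : (-a).det ≠ 1 := fun e => h2 (by
  rw [det_neg, h] at e
  norm_num at e
  linear_combination -e)

theorem r19_ne (h2 : (2 : F) ≠ 0) (h : a.det = 1) : 1 + a ≠ 0 := fun e =>
  r19_neg h2 h (by rw [neg_eq_of_add_eq_zero_left e, det_one])

theorem r19_rank (h2 : (2 : F) ≠ 0) (ha : a * a = 1) (hd : a.det = 1) (h1 : a ≠ 1) (hx : x * a = a * x) :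
    ∃ l : F, x * (1 + a) = l • (1 + a) := by
  have c1 : adjugate a = a := by
    have := adjugate_mul a
    rw [hd, one_smul] at this
    rw [← mul_one (adjugate a), ← ha, ← mul_assoc, this, one_mul]
  have c2 : adjugate (1 + a) = (1 + trace a) • 1 - a + adjugate a := by
    ext i j
    fin_cases i <;> fin_cases j <;> simp [adjugate_fin_three, trace_fin_three] <;> ring
  rw [c1, sub_add_cancel] at c2
  have c3 : (1 + a) * (1 - a) = 0 := by rw [add_mul, mul_sub, mul_sub, ha]; simp
  have c4 := adjugate_mul (1 + a)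
  have c5 : (1 + a).det = 0 := by
    have := congrArg (· * (1 - a)) c4
    simp only [mul_assoc, c3, mul_zero, smul_mul_assoc, one_mul] at this
    exact (smul_eq_zero.1 this.symm).resolve_right (sub_ne_zero.2 h1.symm)
  rw [c2, c5, zero_smul, smul_mul_assoc, one_mul] at c4
  rw [(smul_eq_zero.1 c4).resolve_right (r19_ne h2 hd), zero_smul] at c2
  have c6 : (1 + a) * x * (1 + a) = (2 : F) • (x * (1 + a)) := by
    rw [add_mul 1, ← hx, one_mul, add_mul x, mul_assoc, mul_add a, ha, mul_one, add_comm a, two_smul]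
  generalize 1 + a = M at *
  have c7 : ∀ i j k l, M i k * M l j = M l k * M i j := by
    have h := fun i j => congrFun (congrFun c2 i) j
    have h00 := h 0 0; have h01 := h 0 1; have h02 := h 0 2
    have h10 := h 1 0; have h11 := h 1 1; have h12 := h 1 2
    have h20 := h 2 0; have h21 := h 2 1; have h22 := h 2 2
    simp [adjugate_fin_three] at h00 h01 h02 h10 h11 h12 h20 h21 h22
    simp only [Fin.forall_fin_succ, IsEmpty.forall_iff, and_true, Fin.succ_zero_eq_one, Fin.succ_one_eq_two]
    grind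
  refine ⟨2⁻¹ * trace (M * x), ?_⟩
  rw [mul_smul, eq_inv_smul_iff₀ h2, ← c6]
  ext i j
  simp only [mul_apply, trace, diag_apply, Matrix.smul_apply, smul_eq_mul, Fin.sum_univ_three]
  linear_combination x 0 0 * c7 i j 0 0 + x 0 1 * c7 i j 0 1 + x 0 2 * c7 i j 0 2 + x 1 0 * c7 i j 1 0 + x 1 1 * c7 i j 1 1 +
    x 1 2 * c7 i j 1 2 + x 2 0 * c7 i j 2 0 + x 2 1 * c7 i j 2 1 + x 2 2 * c7 i j 2 2

theorem r19_sq (h2 : (2 : F) ≠ 0) (hd : a.det = 1) (hx : x * x = 1) {l : F} (h : x * (1 + a) = l • (1 + a)) : l = 1 ∨ l = -1 := by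
  have : (l * l - 1) • (1 + a) = 0 := by rw [sub_smul, mul_smul, ← h, ← mul_smul_comm, ← h, ← mul_assoc, hx, one_mul, one_smul, sub_self]
  exact mul_self_eq_one_iff.1 (sub_eq_zero.1 ((smul_eq_zero.1 this).resolve_right (r19_ne h2 hd)))

/-- a four-group in `SL₃` -/
structure Four (a b : Matrix (Fin 3) (Fin 3) F) : Prop where
  h2 : (2 : F) ≠ 0
  a2 : a * a = 1
  b2 : b * b = 1
  da : a.det = 1
  db : b.det = 1
  a1 : a ≠ 1
  b1 : b ≠ 1
  ne : a ≠ b
  cm : a * b = b * a

theorem Four.sum (h : Four a b) : (1 + a) + (1 + b) + (1 + a * b) = (2 : F) • 1 := by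
  obtain ⟨l, hl⟩ := r19_rank h.h2 h.a2 h.da h.a1 h.cm.symm
  obtain ⟨m, hm⟩ := r19_rank h.h2 h.b2 h.db h.b1 h.cm
  have : 1 + a + b + a * b = 0 := by
    rcases r19_sq h.h2 h.da h.b2 hl with rfl | rfl
    · rcases r19_sq h.h2 h.db h.a2 hm with rfl | rfl
      · rw [one_smul, mul_add, mul_one] at hl hm
        refine absurd (smul_right_injective _ h.h2 ?_) h.ne
        simp only [two_smul]
        rw [h.cm] at hm
        linear_combination (norm := abel1) hm - hl
      · rw [neg_smul, one_smul, mul_add, mul_one] at hm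
        linear_combination (norm := abel1) hm
    · rw [neg_smul, one_smul, mul_add, mul_one, ← h.cm] at hl
      linear_combination (norm := abel1) hl
  rw [two_smul]
  linear_combination (norm := abel1) this

theorem Four.dec (h : Four a b) (ha : x * a = a * x) (hb : x * b = b * x) : ∃ l m n : F, x * (1 + a) = l • (1 + a) ∧
    x * (1 + b) = m • (1 + b) ∧ x * (1 + a * b) = n • (1 + a * b) ∧ (2 : F) • x = l • (1 + a) + m • (1 + b) + n • (1 + a * b) := by
  obtain ⟨l, hl⟩ := r19_rank h.h2 h.a2 h.da h.a1 ha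
  obtain ⟨m, hm⟩ := r19_rank h.h2 h.b2 h.db h.b1 hb
  obtain ⟨n, hn⟩ := r19_rank (a := a * b) (x := x) h.h2 (by rw [mul_assoc, ← mul_assoc b, ← h.cm, mul_assoc, h.b2, mul_one, h.a2])
    (by rw [det_mul, h.da, h.db, mul_one]) (fun e => h.ne (by rw [← mul_one a, ← h.b2, ← mul_assoc, e, one_mul]))
    (by rw [← mul_assoc, ha, mul_assoc, hb, mul_assoc])
  exact ⟨l, m, n, hl, hm, hn, by rw [← hl, ← hm, ← hn, ← mul_add, ← mul_add, h.sum, mul_smul_comm, mul_one]⟩

theorem Four.comm (h : Four a b) (ha : x * a = a * x) (hb : x * b = b * x) (ka : y * a = a * y) (kb : y * b = b * y) :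
    x * y = y * x := by
  obtain ⟨l, m, n, -, -, -, e⟩ := h.dec ha hb
  have : Commute y ((2 : F) • x) := e ▸ ((((Commute.one_right y).add_right ka).smul_right l).add_right
    (((Commute.one_right y).add_right kb).smul_right m)).add_right
    (((Commute.one_right y).add_right (Commute.mul_right ka kb)).smul_right n)
  refine smul_right_injective _ h.h2 ?_
  simpa only [mul_smul_comm, smul_mul_assoc] using this.eq.symm

theorem Four.mem (h : Four a b) (ha : x * a = a * x) (hb : x * b = b * x) (hx : x * x = 1) (hd : x.det = 1) :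
    x = 1 ∨ x = a ∨ x = b ∨ x = a * b := by
  obtain ⟨l, m, n, e1, e2, e3, e⟩ := h.dec ha hb
  have s := h.sum
  have dc : (a * b).det = 1 := by rw [det_mul, h.da, h.db, mul_one]
  have k : ∀ w : Matrix (Fin 3) (Fin 3) F, x + x = w + w → x = w := fun w c => smul_right_injective _ h.h2 (by simpa only [two_smul] using c)
  rcases r19_sq h.h2 h.da hx e1 with rfl | rfl <;> rcases r19_sq h.h2 h.db hx e2 with rfl | rfl <;>
    rcases r19_sq h.h2 dc hx e3 with rfl | rfl <;> simp only [neg_smul, one_smul, two_smul] at e s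
  · exact .inl (k _ (by linear_combination (norm := abel1) e + s))
  · exact absurd (k (-(a * b)) (by linear_combination (norm := abel1) e + s) ▸ hd) (r19_neg h.h2 dc)
  · exact absurd (k (-b) (by linear_combination (norm := abel1) e + s) ▸ hd) (r19_neg h.h2 h.db)
  · exact .inr (.inl (k _ (by linear_combination (norm := abel1) e - s)))
  · exact absurd (k (-a) (by linear_combination (norm := abel1) e + s) ▸ hd) (r19_neg h.h2 h.da)
  · exact .inr (.inr (.inl (k _ (by linear_combination (norm := abel1) e - s))))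
  · exact .inr (.inr (.inr (k _ (by linear_combination (norm := abel1) e - s))))
  · exact absurd (k (-1) (by linear_combination (norm := abel1) e - s) ▸ hd) (r19_neg h.h2 det_one)

end H3
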