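import Mathlib

/-! H3.R20: automorphism orbits. -/

namespace H3

open Subgroup MulAction

theorem r20_count {A X : Type*} [Group A] [MulAction A X] [Fintype X] (c : X → ℕ) (N : ℕ)
    (h : ∀ x, N ≤ c x * Nat.card (orbit A x)) : N * Nat.card (orbitRel.Quotient A X) ≤ ∑ x, c x := by
  classical
  haveI := Fintype.ofFinite (orbitRel.Quotient A X)
  rw [← Finset.sum_fiberwise Finset.univ (fun x : X => (Quotient.mk'' x : orbitRel.Quotient A X)), Nat.card_eq_fintype_card,
    ← Finset.card_univ, mul_comm, ← smul_eq_mul, ← Finset.sum_const]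
  refine Finset.sum_le_sum fun q _ => ?_
  induction q using Quotient.inductionOn' with | h y => ?_
  have e : ∀ x, x ∈ Finset.univ.filter (fun x : X => (Quotient.mk'' x : orbitRel.Quotient A X) = Quotient.mk'' y) ↔ x ∈ orbit A y :=
    fun x => by simp only [Finset.mem_filter, Finset.mem_univ, true_and, Quotient.eq'', orbitRel_apply]
  generalize Finset.univ.filter (fun x : X => (Quotient.mk'' x : orbitRel.Quotient A X) = Quotient.mk'' y) = s at e
  have e1 : Nat.card (orbit A y) = s.card := by rw [← Set.ext e, Nat.card_coe_set_eq, Set.ncard_coe_finset]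
  refine Nat.le_of_mul_le_mul_right ?_ (Finset.card_pos.2 ⟨y, (e y).2 (mem_orbit_self y)⟩)
  rw [Finset.sum_mul, mul_comm, ← smul_eq_mul, ← Finset.sum_const]
  exact Finset.sum_le_sum fun x hx => by rw [← e1, ← orbit_eq_iff.2 ((e x).1 hx)]; exact h x

theorem r20_aut {G : Type*} [Group G] [Finite G] (M : Subgroup G) [M.Normal] (hp : M.index.Prime) {x a : G} (hx : x ∉ M)
    (ha : a ∈ M) (hc : ∀ m ∈ M, Commute a m) (h : (x * a) ^ M.index = x ^ M.index) : ∃ τ : MulAut G, τ x = x * a := by
  haveI := Fact.mk hp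
  have o : orderOf (x : G ⧸ M) = M.index := orderOf_eq_prime pow_card_eq_one' fun e => hx ((QuotientGroup.eq_one_iff x).1 e)
  have t : ∀ g : G, ∃ k : ℕ, (x : G ⧸ M) ^ k = g := fun g => mem_powers_iff_mem_zpowers.2
    ((zpowers_eq_top_of_prime_card (p := M.index) rfl fun e => hx ((QuotientGroup.eq_one_iff x).1 e)).ge (mem_top _))
  choose k hk using t
  obtain ⟨D, hD⟩ : ∃ D : ℕ → G, ∀ i, D i = (x * a) ^ i * (x ^ i)⁻¹ := ⟨_, fun _ => rfl⟩
  have d1 : ∀ i j, D (i + j) = D i * (x ^ i * D j * (x ^ i)⁻¹) := fun i j => by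
    rw [hD, hD, hD, pow_add, add_comm, pow_add]; group
  have d2 : ∀ i, D i ∈ M ⊓ centralizer (M : Set G) := fun i => by
    induction i with
    | zero => simp [hD]
    | succ i ih =>
      rw [d1]
      refine mul_mem ih (Normal.conj_mem inferInstance _ ?_ _)
      rw [hD, pow_one, pow_one]
      exact Normal.conj_mem inferInstance _ (show a ∈ M ⊓ centralizer (M : Set G) from ⟨ha, fun m hm => (hc m hm).eq.symm⟩) _
  have d3 : ∀ i, D i = D (i % M.index) := fun i => by
    have : ∀ j, D (M.index * j) = 1 := fun j => by rw [hD, pow_mul, pow_mul, h, mul_inv_cancel]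
    conv_lhs => rw [← Nat.mod_add_div i M.index, d1, this, mul_one, mul_inv_cancel, mul_one]
  have d4 : ∀ i j, (x : G ⧸ M) ^ i = (x : G ⧸ M) ^ j → D i = D j := fun i j e => by
    rw [d3 i, d3 j, (o ▸ pow_eq_pow_iff_modEq.1 e : i % M.index = j % M.index)]
  let f : G →* G := MonoidHom.mk' (fun g => D (k g) * g) fun g g' => by
    have m : (x ^ k g)⁻¹ * g ∈ M := QuotientGroup.eq.1 (hk g)
    have := (d2 (k g')).2 _ m
    rw [d4 (k (g * g')) (k g + k g') (by rw [pow_add, hk, hk, hk]; rfl), d1]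
    calc _ = D (k g) * (x ^ k g * (D (k g') * ((x ^ k g)⁻¹ * g))) * g' := by group
      _ = _ := by rw [← this]; group
  have fi : Function.Injective f := (injective_iff_map_eq_one f).2 fun g e => by
    change D (k g) * g = 1 at e
    have m : g ∈ M := (M.mul_mem_cancel_left (d2 _).1).1 (e ▸ one_mem M)
    rwa [d4 (k g) 0 (by rw [hk, pow_zero, QuotientGroup.eq_one_iff]; exact m), hD, pow_zero, pow_zero, inv_one, one_mul, one_mul] at e
  refine ⟨MulEquiv.ofBijective f (Finite.injective_iff_bijective.1 fi), ?_⟩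
  change D (k x) * x = _
  rw [d4 (k x) 1 (by rw [hk, pow_one]), hD]
  simp

end H3
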