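import Cfsg.Agent.H3.Perm
import Cfsg.Agent.H3.Clifford
import Cfsg.Agent.H3.Linear
import Cfsg.Agent.H4.Nil
import Cfsg.Agent.H4.Val

/-! H3.Tf: fixed points of overgroups of the normalizer of a TI Sylow subgroup, by reduction mod p. -/

set_option autoImplicit false
open Cfsg Subgroup H4
open scoped ComplexConjugate Pointwise

namespace H3

variable {G : Type*} [Group G] {M : Ideal AlgInt} {p : ℕ}

theorem tf_norm {ι : Type*} [Finite ι] (M : Ideal AlgInt) {f : ι → ℂ} (hf : f ≠ 0) :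
    ∃ c : ℂ, (∀ a, c * f a ∈ O M) ∧ ∃ a, c * f a = 1 := by
  obtain ⟨b, hb⟩ := Function.ne_iff.1 hf
  have : Nonempty ι := ⟨b⟩
  obtain ⟨a, ha⟩ := Finite.exists_max fun a => v M (f a)
  have h0 : f a ≠ 0 := fun h => by
    have := ha b
    rw [h, map_zero, le_zero_iff, map_eq_zero] at this
    exact hb this
  refine ⟨(f a)⁻¹, fun x => mem_O_iff.2 ?_, a, inv_mul_cancel₀ h0⟩
  rw [map_mul, map_inv₀, inv_mul_le_one₀ (zero_lt_iff.2 ((map_ne_zero _).2 h0))]
  exact ha x

theorem tf_core [Fintype G] {Γ : Type*} [Group Γ] [Finite Γ] (δ : G →* Γ) {P H : Subgroup G} [Fintype P]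
    (hfree : ∀ g, g ∉ H → ∀ u ∈ P, g⁻¹ * u * g ∈ H → u = 1) (hPH : P ≤ H) {f : Γ → ℂ}
    (hH : ∀ a, ∀ h ∈ H, f (a * δ h) = f a) (hG : ∀ a, ∑ g, f (a * δ g) = 0)
    (hs : ∀ c : ℂ, (∀ a, c * f a ∈ O M) → ∀ a g, ∑ u : P, red M (c * f (a * δ u * δ g)) = 0) : f = 0 := by
  classical
  by_contra hf
  obtain ⟨c, hc, a, ha⟩ := tf_norm M hf
  let F : G ⧸ H → ℂ := fun x => c * f (a * δ x.out)
  have hF : ∀ g : G, F (g : G ⧸ H) = c * f (a * δ g) := fun g => by
    obtain ⟨h, e⟩ := QuotientGroup.mk_out_eq_mul H g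
    simp only [F, e, map_mul, ← mul_assoc, hH _ _ h.2]
  have h1 : ∑ x, F x = 0 := by
    have h2 : ∑ g : G, F (g : G ⧸ H) = 0 := by simp only [hF, ← Finset.mul_sum, hG, mul_zero]
    have := Fintype.ofFinite H
    rw [← (groupEquivQuotientProdSubgroup (s := H)).symm.sum_comp, Fintype.sum_prod_type] at h2
    have h3 : ∀ (x : G ⧸ H) (y : H), (((groupEquivQuotientProdSubgroup (s := H)).symm (x, y) : G) : G ⧸ H) = x :=
      fun x y => by
        have := (groupEquivQuotientProdSubgroup (s := H)).apply_symm_apply (x, y)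
        exact congrArg Prod.fst this
    simp only [h3, Finset.sum_const, nsmul_eq_mul, Finset.card_univ, ← Finset.mul_sum] at h2
    exact (mul_eq_zero.1 h2).resolve_left (Nat.cast_ne_zero.2 Fintype.card_ne_zero)
  have h4 := congrArg (red M) h1
  rw [red_sum _ F (fun x _ => hc _), red_zero, ← Finset.add_sum_erase _ _ (Finset.mem_univ ((1 : G) : G ⧸ H)),
    hF, map_one, mul_one, ha, red_one,
    Finset.sum_cancels_of_partition_cancels (MulAction.orbitRel P (G ⧸ H)) ?_, add_zero] at h4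
  · exact one_ne_zero h4
  intro x hx
  induction x using QuotientGroup.induction_on with | H g => ?_
  have hg : g ∉ H := fun h => (Finset.mem_erase.1 hx).1 (QuotientGroup.eq.2 (by simpa using h))
  rw [← hs c hc a g]
  symm
  refine Finset.sum_bij (fun u _ => ((u * g : G) : G ⧸ H)) (fun u _ => ?_) (fun u _ w _ e => ?_) (fun y hy => ?_)
    (fun u _ => by rw [hF, map_mul, mul_assoc])
  · simp only [Finset.mem_filter, Finset.mem_erase, Finset.mem_univ, and_true]
    refine ⟨fun h => hg ?_, ⟨u, rfl⟩⟩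
    have := QuotientGroup.eq.1 h
    rw [mul_one, inv_mem_iff] at this
    exact (H.mul_mem_cancel_left (hPH u.2)).1 this
  · have := hfree g hg ((u : G)⁻¹ * w) (mul_mem (inv_mem u.2) w.2) (by simpa [mul_assoc] using QuotientGroup.eq.1 e)
    exact Subtype.ext (inv_mul_eq_one.1 this)
  · obtain ⟨u, e⟩ := (Finset.mem_filter.1 hy).2
    exact ⟨u, Finset.mem_univ _, e⟩

theorem tf_free [Finite G] [Fact p.Prime] (P : Sylow p G)
    (hTI : ∀ g : G, g ∉ normalizer ((P : Subgroup G) : Set G) → (P : Subgroup G) ⊓ (MulAut.conj g • (P : Subgroup G)) = ⊥)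
    {H : Subgroup G} (hH : normalizer ((P : Subgroup G) : Set G) ≤ H) :
    ∀ g, g ∉ H → ∀ u ∈ (P : Subgroup G), g⁻¹ * u * g ∈ H → u = 1 := by
  intro g hg u hu h
  have hPH : (P : Subgroup G) ≤ H := le_normalizer.trans hH
  have h1 : IsPGroup p (zpowers (⟨_, h⟩ : H)) := by
    obtain ⟨k, hk⟩ := P.isPGroup' ⟨u, hu⟩
    refine IsPGroup.iff_orderOf.2 fun y => ?_
    have hk' : u ^ p ^ k = 1 := congrArg Subtype.val hk
    have h2 : (⟨_, h⟩ : H) ^ p ^ k = 1 := Subtype.ext (by
      simpa [hk'] using (conj_pow (i := p ^ k) (a := g⁻¹) (b := u)))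
    obtain ⟨j, -, hj⟩ := (Nat.dvd_prime_pow Fact.out).1 ((orderOf_dvd_natCard y).trans
      (Nat.card_zpowers (⟨_, h⟩ : H) ▸ orderOf_dvd_of_pow_eq_one h2))
    exact ⟨j, hj⟩
  obtain ⟨Q, hQ⟩ := h1.exists_le_sylow
  obtain ⟨y, rfl⟩ := MulAction.exists_smul_eq H (P.subtype hPH) Q
  have h3 : (⟨_, h⟩ : H) ∈ (y • P.subtype hPH : Sylow p H) := hQ (mem_zpowers _)
  have h4 : (y : G)⁻¹ * (g⁻¹ * u * g) * y ∈ (P : Subgroup G) := by
    have := (Subgroup.mem_pointwise_smul_iff_inv_smul_mem).1 h3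
    simpa [mem_subgroupOf] using this
  have h5 := hTI (g * y) fun h6 => hg ((H.mul_mem_cancel_right y.2).1 (hH h6))
  refine mem_bot.1 (h5 ▸ mem_inf.2 ⟨hu, (Subgroup.mem_pointwise_smul_iff_inv_smul_mem).2 ?_⟩)
  simpa [mul_assoc] using h4

theorem tf_small [Fintype G] [Fact p.Prime] {P H : Subgroup G} (hP : IsPGroup p P)
    (hfree : ∀ g, g ∉ H → ∀ u ∈ P, g⁻¹ * u * g ∈ H → u = 1) (hPH : P ≤ H) {n : ℕ}
    (ρ : Representation ℂ G (Fin n → ℂ)) (hn : n < Nat.card P) {w : Fin n → ℂ} (hw : ∀ h ∈ H, ρ h w = w)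
    (h0 : ∑ g, ρ g w = 0) : w = 0 := by
  classical
  have := Fintype.ofFinite P
  obtain ⟨M, hM⟩ := exists_isPModular (p := p) Fact.out
  have := charP_k hM
  funext i
  have key := tf_core (M := M) (MonoidHom.id G) hfree hPH (f := fun a => ρ a w i)
    (fun a h hh => by simp [hw h hh])
    (fun a => by
      have := congrArg (fun z => ρ a z i) h0
      simpa [map_sum] using this) ?_
  · simpa using congrFun key 1
  intro c hc a g
  have h1 : ¬ LinearIndependent ℂ fun u : P => ρ (u * g) w := fun h => by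
    have := h.fintype_card_le_finrank
    rw [Module.finrank_fin_fun, ← Nat.card_eq_fintype_card] at this
    omega
  obtain ⟨d, hd, u₀, hu₀⟩ := Fintype.not_linearIndependent_iff.1 h1
  obtain ⟨e, he, u₁, hu₁⟩ := tf_norm M (f := d) (fun h => hu₀ (congrFun h u₀))
  let S : AddSubgroup (MonoidAlgebra (k M) P) :=
    { carrier := {z | ∀ a : G, ∑ u : P, z.coeff u * red M (c * ρ (a * u * g) w i) = 0}
      add_mem' := fun {x y} hx hy a => by
        simp only [MonoidAlgebra.coeff_add, Finsupp.add_apply, add_mul, Finset.sum_add_distrib, hx a, hy a, add_zero]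
      zero_mem' := fun a => by simp
      neg_mem' := fun {x} hx a => by
        simp only [MonoidAlgebra.coeff_neg, Finsupp.neg_apply, neg_mul, Finset.sum_neg_distrib, hx a, neg_zero] }
  obtain ⟨z, hz, hz0, hz1⟩ := exists_fixed_vector (F := k M) (G := P) (p := p) (P := ⊤) (hP.to_subgroup ⊤) S
    (fun u _ z hz a => by
      have := hz (a * u)
      refine Eq.trans (Fintype.sum_equiv (Equiv.mulLeft u) _ _ fun y => ?_).symm this
      simp [MonoidAlgebra.coeff_single_mul_apply, mul_assoc])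
    (v := .ofCoeff (Finsupp.equivFunOnFinite.symm fun u => red M (e * d u)))
    (fun a => by
      have h2 := congrArg (fun z => red M (e * (c * ρ a z i))) hd
      simp only [map_sum, map_smul, Finset.sum_apply, Pi.smul_apply, smul_eq_mul, Finset.mul_sum, map_zero,
        Pi.zero_apply, mul_zero, red_zero] at h2
      have h3 : ∀ u : P, e * (c * (d u * ρ a (ρ (u * g) w) i)) = e * d u * (c * ρ (a * u * g) w i) := fun u => by
        simp only [map_mul, Module.End.mul_apply]; ring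
      simp only [h3] at h2
      rw [red_sum _ _ fun u _ => mul_mem (he u) (hc _)] at h2
      rw [← h2]
      exact Finset.sum_congr rfl fun u _ => by rw [red_mul (he u) (hc _)]; rfl)
    (fun h => by
      have := congrArg (fun z : MonoidAlgebra (k M) P => z.coeff u₁) h
      simp [hu₁] at this)
  have h5 : ∀ u, z.coeff u = z.coeff 1 := fun u => by
    have := congrArg (fun z : MonoidAlgebra (k M) P => z.coeff u) (hz1 u (mem_top u))
    simpa [MonoidAlgebra.coeff_single_mul_apply] using this.symm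
  have h6 : z.coeff 1 ≠ 0 := fun h => hz0 (by ext u; simp [h5 u, h])
  have h7 := hz a
  simp only [h5, ← Finset.mul_sum] at h7
  exact (mul_eq_zero.1 h7).resolve_left h6

theorem tf_char [Fintype G] [Fact p.Prime] {P H : Subgroup G} [Fintype H] (hP : IsPGroup p P)
    (hfree : ∀ g, g ∉ H → ∀ u ∈ P, g⁻¹ * u * g ∈ H → u = 1) (hPH : P ≤ H) {ψ : G → ℂ} (hψ : IsCharacter G ψ)
    {n : ℕ} (h1 : ψ 1 = n) (hn : n < Nat.card P) :
    classInner (fun h : H => ψ h) (fun _ => 1) = classInner ψ (fun _ => 1) := by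
  obtain ⟨m, ρ, rfl⟩ := hψ
  obtain rfl : m = n := by simpa using h1
  have h2 := inner_one_eq_finrank (ρ.comp H.subtype)
  rw [inner_one_eq_finrank]
  refine Eq.trans h2 ?_
  suffices h : Representation.invariants (ρ.comp H.subtype) = ρ.invariants by rw [h]
  ext w
  simp only [Representation.mem_invariants]
  refine ⟨fun h g => ?_, fun h g => h g⟩
  have h3 : ∀ a : G, ρ a (∑ g, ρ g w) = ∑ g, ρ g w := fun a => by
    rw [map_sum, ← Equiv.sum_comp (Equiv.mulLeft a) (fun g => ρ g w)]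
    simp
  have h4 := tf_small hP hfree hPH ρ hn (w := (Nat.card G : ℂ) • w - ∑ g, ρ g w)
    (fun y hy => by rw [map_sub, map_smul, h3]; exact congrArg (fun z => _ • z - _) (h ⟨y, hy⟩))
    (by simp only [map_sub, map_smul, h3, Finset.sum_sub_distrib, ← Finset.smul_sum, Finset.sum_const,
        Finset.card_univ, Nat.card_eq_fintype_card, ← Nat.cast_smul_eq_nsmul ℂ, sub_self])
  have h5 := h3 g
  rw [← sub_eq_zero.1 h4, map_smul] at h5
  exact smul_right_injective _ (card_ne_zero' G) h5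

end H3
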