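import Cfsg.Agent.H3.BSW

/-!
H3.W1: involution centralizer `GL(2, 3)`, character-theoretic part.
-/

set_option autoImplicit false
open Cfsg Subgroup Finset
open scoped Classical ComplexConjugate

namespace H3
namespace WG

variable {G : Type*} [Group G] [Fintype G]

theorem bnd {x f : G → ℂ} (hx : SIrr G x) (hf : IsGeneralizedCharacter G f) {n : ℕ} (h : classInner f f = n) (h3 : n ≤ 3) :
    classInner x f = 0 ∨ classInner x f = 1 ∨ classInner x f = -1 := by
  obtain ⟨m, hm⟩ := inner_gen_int hx.gen hf
  have := inner_self_re_nonneg (f - (m : ℂ) • x)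
  simp only [inner_sub_left, inner_sub_right, inner_smul_left, inner_smul_right, h, hm, ← inner_gen_symm hx.gen hf, hx.inner_self,
    map_intCast] at this
  norm_cast at this
  have : (n : ℤ) ≤ 3 := by exact_mod_cast h3
  have : m < 2 := by nlinarith
  have : -2 < m := by nlinarith
  rw [hm]; norm_cast; omega

theorem sub1 {x f : G → ℂ} (hx : SIrr G x) (hf : IsGeneralizedCharacter G f) (h : classInner x f = 1) :
    classInner (f - x) (f - x) = classInner f f - 1 := by
  simp only [inner_sub_left, inner_sub_right, h, hx.inner_self, inner_gen_symm hf hx.gen]; ring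

theorem rest2 {x y f : G → ℂ} (hx : SIrr G x) (hy : SIrr G y) (hf : IsGeneralizedCharacter G f) (h : classInner f f = 3)
    (a : classInner x f = 1) (b : classInner y f = 1) (c : classInner x y = 0) : SIrr G (f - x - y) :=
  gen_norm_one (gen_sub (gen_sub hf hx.gen) hy.gen) (by
    rw [sub1 hy (gen_sub hf hx.gen) (by rw [inner_sub_right, b, inner_gen_symm hy.gen hx.gen, c, sub_zero]), sub1 hx hf a, h]; norm_num)

theorem eq3 {x y z f : G → ℂ} (hx : SIrr G x) (hy : SIrr G y) (hz : SIrr G z) (hf : IsGeneralizedCharacter G f) (h : classInner f f = 3)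
    (a : classInner x f = 1) (b : classInner y f = 1) (c : classInner z f = 1) (d : classInner x y = 0) (e : classInner x z = 0)
    (k : classInner y z = 0) : f 1 = x 1 + y 1 + z 1 := by
  have s := rest2 hx hy hf h a b d
  have := inner_self_eq_zero (a := f - x - y - z) (by
    rw [sub1 hz s.gen (by rw [inner_sub_right, inner_sub_right, c, inner_gen_symm hz.gen hx.gen, inner_gen_symm hz.gen hy.gen, e, k]; simp),
      s.inner_self, sub_self])
  have := congrFun this 1
  simp only [Pi.sub_apply, Pi.zero_apply] at this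
  linear_combination this

theorem orth2 {w p q : G → ℂ} (hw : SIrr G w) (hp : SIrr G p) (c : classInner p q = 0) (h : classInner w (p + q) = 0) :
    classInner w p = 0 ∧ classInner w q = 0 := by
  rw [inner_add_right] at h
  rcases hw.cases hp with u | rfl | rfl
  · exact ⟨u, by simpa [u] using h⟩
  · simp [c, hw.inner_self] at h
  · simp [inner_neg_left, c, hp.inner_self] at h

theorem step1 {B B' : G → ℂ} (gB : IsGeneralizedCharacter G B) (gB' : IsGeneralizedCharacter G B') (b1 : classInner B B = 2)
    (b2 : classInner B' B' = 2) (b3 : classInner B B' = 1) : ∃ x y z, SIrr G x ∧ SIrr G y ∧ SIrr G z ∧ B = x + y ∧ B' = x + z ∧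
      classInner x y = 0 ∧ classInner x z = 0 ∧ classInner y z = 0 := by
  have k : ∀ x y, SIrr G x → SIrr G y → classInner x y = 0 → B = x + y → classInner x B' = 1 → classInner y B' = 0 →
      ∃ x y z, SIrr G x ∧ SIrr G y ∧ SIrr G z ∧ B = x + y ∧ B' = x + z ∧ classInner x y = 0 ∧ classInner x z = 0 ∧ classInner y z = 0 :=
    fun x y hx hy c e u v => ⟨x, y, B' - x, hx, hy, gen_norm_one (gen_sub gB' hx.gen) (by rw [sub1 hx gB' u, b2]; norm_num), e, by simp, c,
      by rw [inner_sub_right, u, hx.inner_self, sub_self], by rw [inner_sub_right, v, inner_gen_symm hy.gen hx.gen, c, sub_self]⟩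
  obtain ⟨x, y, hx, hy, c, e⟩ := peel2 gB b1
  rw [e, inner_add_left] at b3
  rcases bnd hx gB' (n := 2) b2 (by norm_num) with u | u | u <;> rcases bnd hy gB' (n := 2) b2 (by norm_num) with v | v | v <;>
    rw [u, v] at b3 <;> norm_num at b3
  · exact k y x hy hx ((inner_gen_symm hy.gen hx.gen).trans c) (e.trans (add_comm ..)) v u
  · exact k x y hx hy c e u v

theorem decomp {B B' C D E : G → ℂ} {t : G} (gB : IsGeneralizedCharacter G B) (gB' : IsGeneralizedCharacter G B')
    (gC : IsGeneralizedCharacter G C) (gD : IsGeneralizedCharacter G D) (gE : IsGeneralizedCharacter G E)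
    (z1 : B 1 = 0) (z2 : B' 1 = 0) (z3 : C 1 = 0) (z4 : D 1 = 0) (z5 : E 1 = 0)
    (o1 : classInner (fun _ => 1) B = 0) (o2 : classInner (fun _ => 1) B' = 0) (o3 : classInner (fun _ => 1) C = 1)
    (o4 : classInner (fun _ => 1) D = 0) (o5 : classInner (fun _ => 1) E = 0)
    (b1 : classInner B B = 2) (b2 : classInner B' B' = 2) (b3 : classInner B B' = 1)
    (c1 : classInner B C = 1) (c2 : classInner B' C = 1) (c3 : classInner C C = 3)
    (d1 : classInner B D = 1) (d2 : classInner B' D = 1) (d3 : classInner C D = 1) (d4 : classInner D D = 3)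
    (e1 : classInner B E = 0) (e2 : classInner B' E = 0) (e3 : classInner C E = 1) (e4 : classInner D E = -1) (e5 : classInner E E = 3)
    (ht : ∀ χ, IsGeneralizedCharacter G χ → χ t = classInner χ C - 3 * classInner χ D - 4 * classInner χ E + 2 * classInner χ B +
      2 * classInner χ B') : ∃ x v p q r, SIrr G x ∧ SIrr G v ∧ SIrr G p ∧ SIrr G q ∧ SIrr G r ∧ C = (fun _ => 1) + x + v ∧
      D = x + p + q ∧ E = v - p + r ∧ x t = 2 ∧ v t = -3 ∧ p t = 1 ∧ q t = -3 ∧ r t = -4 := by
  have ho : SIrr G fun _ => 1 := Or.inl isIrr_one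
  have o0 : (fun _ : G => (1 : ℂ)) 1 = 1 := rfl
  generalize (fun _ : G => (1 : ℂ)) = o at *
  obtain ⟨x, y, z, hx, hy, hz, rfl, rfl, xy, xz, yz⟩ := step1 gB gB' b1 b2 b3
  obtain ⟨ox, oy⟩ := orth2 ho hx xy o1
  obtain ⟨-, oz⟩ := orth2 ho hx xz o2
  obtain ⟨d, hd⟩ := gen_one_int hx.gen
  have d0 : d ≠ 0 := by rintro rfl; exact hx.one_ne_zero (by simpa using hd)
  simp only [inner_add_left, Pi.add_apply] at c1 c2 d1 d2 e1 e2 z1 z2
  have xC : classInner x C = 1 := by
    rcases bnd hx gC (n := 3) c3 le_rfl with u | u | u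
    · have := eq3 ho hy hz gC c3 o3 (by simpa [u] using c1) (by simpa [u] using c2) oy oz yz
      have : ((2 * d : ℤ) : ℂ) = (1 : ℤ) := by push_cast; linear_combination this - z3 + o0 + z1 + z2 - 2 * hd
      have := Int.cast_injective this
      omega
    · exact u
    · rcases bnd hy gC (n := 3) c3 le_rfl with v | v | v <;> rw [u, v] at c1 <;> norm_num at c1
  have hv := rest2 ho hx gC c3 o3 xC ox
  obtain ⟨v, rfl⟩ : ∃ v, C = o + x + v := ⟨C - o - x, by ring⟩
  rw [show o + x + v - o - x = v by ring] at hv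
  have s := fun {a b : G → ℂ} (a1 : SIrr G a) (b1 : SIrr G b) => inner_gen_symm a1.gen b1.gen
  simp only [inner_add_left, inner_add_right, Pi.add_apply, s hx ho, s hy ho, s hz ho, s hy hx, s hz hx, ox, oy, oz, xy, xz, ho.inner_self,
    hx.inner_self] at o3 xC c1 c2 d3 e3 z3
  have ov : classInner o v = 0 := by linear_combination o3
  have xv : classInner x v = 0 := by linear_combination xC
  have yv : classInner y v = 0 := by linear_combination c1 - xC
  have zv : classInner z v = 0 := by linear_combination c2 - xC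
  have xD : classInner x D = 1 := by
    rcases bnd hx gD (n := 3) d4 le_rfl with u | u | u
    · have := eq3 hy hz hv gD d4 (by simpa [u] using d1) (by simpa [u] using d2) (by simpa [u, o4] using d3) yz yv zv
      have : ((3 * d : ℤ) : ℂ) = (-1 : ℤ) := by push_cast; linear_combination this - z4 - o0 + z1 + z2 + z3 - 3 * hd
      have := Int.cast_injective this
      omega
    · exact u
    · rcases bnd hy gD (n := 3) d4 le_rfl with v | v | v <;> rw [u, v] at d1 <;> norm_num at d1
  have xE : classInner x E = 0 := by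
    rcases bnd hx gE (n := 3) e5 le_rfl with u | u | u
    · exact u
    · have := eq3 hx hy.neg hz.neg gE e5 u (by rw [inner_neg_left]; linear_combination u - e1) (by rw [inner_neg_left]; linear_combination u - e2)
        (by simp [inner_neg_right, xy]) (by simp [inner_neg_right, xz]) (by simp [inner_neg_right, inner_neg_left, yz])
      simp only [Pi.neg_apply] at this
      have : ((3 * d : ℤ) : ℂ) = (0 : ℤ) := by push_cast; linear_combination z5 - this + z1 + z2 - 3 * hd
      have := Int.cast_injective this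
      omega
    · have := eq3 hx.neg hy hz gE e5 (by rw [inner_neg_left, u, neg_neg]) (by linear_combination e1 - u) (by linear_combination e2 - u)
        (by simp [inner_neg_left, xy]) (by simp [inner_neg_left, xz]) yz
      simp only [Pi.neg_apply] at this
      have : ((3 * d : ℤ) : ℂ) = (0 : ℤ) := by push_cast; linear_combination this - z5 + z1 + z2 - 3 * hd
      have := Int.cast_injective this
      omega
  have yE : classInner y E = 0 := by linear_combination e1 - xE
  have zE : classInner z E = 0 := by linear_combination e2 - xE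
  have vE : classInner v E = 1 := by linear_combination e3 - xE - o5
  have k : ∀ p q, SIrr G p → SIrr G q → classInner p q = 0 → D - x = p + q → classInner p E = -1 → classInner q E = 0 →
      ∃ x' v' p q r, SIrr G x' ∧ SIrr G v' ∧ SIrr G p ∧ SIrr G q ∧ SIrr G r ∧ o + x + v = o + x' + v' ∧
      D = x' + p + q ∧ E = v' - p + r ∧ x' t = 2 ∧ v' t = -3 ∧ p t = 1 ∧ q t = -3 ∧ r t = -4 := fun p q hp hq pq e pE qE => by
    obtain ⟨op, oq⟩ := orth2 ho hp pq (by rw [← e, inner_sub_right, o4, ox, sub_self])
    obtain ⟨xp, xq⟩ := orth2 hx hp pq (by rw [← e, inner_sub_right, xD, hx.inner_self, sub_self])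
    obtain ⟨yp, yq⟩ := orth2 hy hp pq (by rw [← e, inner_sub_right, s hy hx, xy]; linear_combination d1 - xD)
    obtain ⟨zp, zq⟩ := orth2 hz hp pq (by rw [← e, inner_sub_right, s hz hx, xz]; linear_combination d2 - xD)
    obtain ⟨vp, vq⟩ := orth2 hv hp pq (by rw [← e, inner_sub_right, s hv hx, xv]; linear_combination d3 - xD - o4)
    obtain rfl : D = x + p + q := by rw [add_assoc, ← e]; ring
    have hr := rest2 hv hp.neg gE e5 vE (by rw [inner_neg_left, pE, neg_neg]) (by simp [inner_neg_right, vp])
    have tx := ht x hx.gen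
    have tv := ht v hv.gen
    have tp := ht p hp.gen
    have tq := ht q hq.gen
    have tE := ht E gE
    rw [inner_gen_symm gE gC, inner_gen_symm gE gD, inner_gen_symm gE gB, inner_gen_symm gE gB', e4, e5] at tE
    simp only [inner_add_left, inner_add_right, s hx ho, s hv ho, s hp ho, s hq ho, s hv hx, s hp hx, s hq hx, s hv hy, s hp hy, s hq hy,
      s hv hz, s hp hz, s hq hz, s hp hv, s hq hv, s hq hp, ox, ov, op, oq, xy, xz, xv, xp, xq, yv, yp, yq, zv, zp, zq, vp, vq, pq,
      hx.inner_self, hv.inner_self, hp.inner_self, hq.inner_self, xE, yE, zE, vE, pE, qE, o5] at tx tv tp tq tE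
    refine ⟨x, v, p, q, _, hx, hv, hp, hq, hr, rfl, rfl, by ring, by linear_combination tx, by linear_combination tv,
      by linear_combination tp, by linear_combination tq, ?_⟩
    simp only [Pi.sub_apply, Pi.neg_apply]
    linear_combination tE - tv + tp
  obtain ⟨p, q, hp, hq, pq, e⟩ := peel2 (gen_sub gD hx.gen) (by rw [sub1 hx gD xD, d4]; norm_num)
  have e6 : classInner p E + classInner q E = -1 := by rw [← inner_add_left, ← e, inner_sub_left, e4, xE, sub_zero]
  rcases bnd hp gE (n := 3) e5 le_rfl with u | u | u <;> rcases bnd hq gE (n := 3) e5 le_rfl with w | w | w <;>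
    rw [u, w] at e6 <;> norm_num at e6
  · exact k q p hq hp ((s hq hp).trans pq) (e.trans (add_comm ..)) w u
  · exact k p q hp hq pq e u w

theorem num {n d e : ℤ} (h : n % 2 = 1) (h1 : n * (d - 2) ^ 2 = 96 * d * (d + 1)) (h2 : n * (2 * e - d) ^ 2 = 96 * d * e * (d + e))
    (h3 : n * (3 * e - (d + 1)) ^ 2 = 192 * e * (d + 1) * (e + (d + 1))) : n = 117 ∨ n = 165 := by
  have a : (d - 2) ∣ 576 := ⟨n * (d - 2) - 96 * (d - 2) - 480, by linear_combination -h1⟩
  have b := Int.le_of_dvd (by norm_num) a
  have c := Int.le_of_dvd (by norm_num) ((neg_dvd.2 a))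
  obtain ⟨k, rfl⟩ : ∃ k : ℕ, d = k - 574 := ⟨(d + 574).toNat, by omega⟩
  have d0 : (k : ℤ) - 574 - 2 ≠ 0 := fun z => by rw [z] at a; norm_num at a
  have := (show ∀ k : ℕ, k < 1153 → (96 * ((k : ℤ) - 574) * (k - 574 + 1)) % (k - 574 - 2) ^ 2 = 0 →
    (96 * ((k : ℤ) - 574) * (k - 574 + 1)) / (k - 574 - 2) ^ 2 % 2 = 1 → k = 584 ∨ k = 600 ∨ k = 568 ∨ k = 552 by decide +kernel) k (by omega)
    (by rw [← h1, Int.mul_emod_left]) (by rw [← h1, Int.mul_ediv_cancel _ (pow_ne_zero 2 d0), h])
  clear a b c d0
  rcases this with rfl | rfl | rfl | rfl <;> norm_num at h1 h2 h3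
  · omega
  · omega
  · obtain rfl : n = 45 := by omega
    have : (e - 1) * (7 * e - 15) = 0 := by nlinarith
    obtain rfl : e = 1 := by rcases mul_eq_zero.1 this with u | u <;> omega
    norm_num at h3
  · obtain rfl : n = 77 := by omega
    have : (e - 1) * (5 * e - 77) = 0 := by nlinarith
    obtain rfl : e = 1 := by rcases mul_eq_zero.1 this with u | u <;> omega
    norm_num at h3

theorem cyc_int {χ : G → ℂ} (h : IsCharacter G χ) {g : G} {n : ℕ} (hg : g ^ n = 1) {ζ : ℂ} (hz : ζ ^ n = 1) :
    ∃ m : ℤ, ∑ k ∈ range n, χ (g ^ k) * ζ ^ k = n * m := by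
  obtain ⟨s, -, -, a, -, b⟩ := char_eigen' h g
  replace b : ∀ k : ℕ, χ (g ^ k) = (s.map (· ^ k)).sum := fun k => by simpa using b k
  simp only [b]
  clear b
  induction s using Multiset.induction_on with
  | empty => exact ⟨0, by simp⟩
  | cons x s ih =>
    obtain ⟨m, hm⟩ := ih fun y hy => a y (Multiset.mem_cons_of_mem hy)
    have c : (x * ζ) ^ n = 1 := by
      obtain ⟨j, e⟩ := orderOf_dvd_of_pow_eq_one hg
      rw [mul_pow, hz, e, pow_mul, a x (Multiset.mem_cons_self ..), one_pow, one_mul]
    simp only [Multiset.map_cons, Multiset.sum_cons, add_mul, sum_add_distrib, hm, ← mul_pow]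
    by_cases e : x * ζ = 1
    · exact ⟨m + 1, by simp [e]; ring⟩
    · exact ⟨m, by rw [geom_sum_eq e, c]; simp⟩

end WG
end H3
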