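import Cfsg.Agent.H3.W1

/-!
H3.W2: involution centralizer `GL(2, 3)`, the order formula.
-/

set_option autoImplicit false
open Cfsg Subgroup Finset
open scoped Classical ComplexConjugate

namespace H3
namespace WG

variable {G : Type*} [Group G] [Fintype G] {t a b : G}

/-- the local data -/
structure W (t a b : G) : Prop where
  a8 : a ^ 8 = 1
  a4 : a ^ 4 = t
  b6 : b ^ 6 = 1
  b3 : b ^ 3 = t
  c3 : IsConj a (a ^ 3)
  c6 : IsConj (a ^ 2) (a ^ 6)
  c7 : IsConj (a ^ 5) (a ^ 7)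
  c5 : IsConj b (b ^ 5)
  nc : List.Pairwise (fun x y => ¬ IsConj x y) [1, t, a ^ 2, a, a ^ 5, b]
  k1 : Nat.card (centralizer {t}) = 48
  k2 : Nat.card (centralizer {a ^ 2}) = 8
  k3 : Nat.card (centralizer {a}) = 8
  k4 : Nat.card (centralizer {a ^ 5}) = 8
  k5 : Nat.card (centralizer {b}) = 6
  n1 : NI t t = 12
  n2 : NI t (a ^ 2) = 4
  n3 : NI t a = 0
  n4 : NI t (a ^ 5) = 0
  n5 : NI t b = 6
  odd : (centralizer {t}).index % 2 = 1

/-- the class function with the given values on the five special classes -/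
noncomputable def Φ (t a b : G) (v1 v2 v3 v4 v5 : ℂ) : G → ℂ :=
  v1 • classInd t + v2 • classInd (a ^ 2) + v3 • classInd a + v4 • classInd (a ^ 5) + v5 • classInd b

variable {v1 v2 v3 v4 v5 : ℂ}

theorem class_Φ : IsClassFunction G (Φ t a b v1 v2 v3 v4 v5) :=
  class_add (class_add (class_add (class_add (class_smul _ (class_classInd _)) (class_smul _ (class_classInd _)))
    (class_smul _ (class_classInd _))) (class_smul _ (class_classInd _))) (class_smul _ (class_classInd _))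

theorem idx (x : G) {n : ℕ} (h : Nat.card (centralizer {x}) = n) : ((centralizer {x}).index : ℂ) = Nat.card G / n := by
  rw [← (centralizer {x}).index_mul_card, ← h, Nat.cast_mul, mul_div_cancel_right₀ _ (card_ne_zero' _)]

namespace W
variable (h : W t a b)
include h

theorem sum {ψ : G → ℂ} (hψ : IsClassFunction G ψ) : ∑ y, Φ t a b v1 v2 v3 v4 v5 y * ψ y =
    Nat.card G * (v1 / 48 * ψ t + v2 / 8 * ψ (a ^ 2) + v3 / 8 * ψ a + v4 / 8 * ψ (a ^ 5) + v5 / 6 * ψ b) := by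
  simp only [Φ, Pi.add_apply, Pi.smul_apply, smul_eq_mul, add_mul, sum_add_distrib, mul_assoc, ← mul_sum, sum_classInd_mul _ hψ,
    idx _ h.k1, idx _ h.k2, idx _ h.k3, idx _ h.k4, idx _ h.k5]
  push_cast; ring

theorem inner {ψ : G → ℂ} (hψ : IsClassFunction G ψ) : classInner ψ (Φ t a b v1 v2 v3 v4 v5) =
    conj v1 / 48 * ψ t + conj v2 / 8 * ψ (a ^ 2) + conj v3 / 8 * ψ a + conj v4 / 8 * ψ (a ^ 5) + conj v5 / 6 * ψ b := by
  have := h.sum (v1 := conj v1) (v2 := conj v2) (v3 := conj v3) (v4 := conj v4) (v5 := conj v5) hψ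
  rw [classInner, inv_mul_eq_iff_eq_mul₀ (card_ne_zero' G), ← this]
  refine sum_congr rfl fun y _ => ?_
  simp only [Φ, classInd, Pi.add_apply, Pi.smul_apply, smul_eq_mul, map_add, map_mul, apply_ite (starRingEnd ℂ), map_one, map_zero, mul_comm (ψ y)]
  congr!

theorem val : Φ t a b v1 v2 v3 v4 v5 1 = 0 ∧ Φ t a b v1 v2 v3 v4 v5 t = v1 ∧ Φ t a b v1 v2 v3 v4 v5 (a ^ 2) = v2 ∧
    Φ t a b v1 v2 v3 v4 v5 a = v3 ∧ Φ t a b v1 v2 v3 v4 v5 (a ^ 5) = v4 ∧ Φ t a b v1 v2 v3 v4 v5 b = v5 := by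
  have := h.nc
  simp only [List.pairwise_cons, List.mem_cons, forall_eq_or_imp, List.not_mem_nil, false_imp_iff, implies_true, and_true, or_false,
    forall_eq] at this
  obtain ⟨⟨a1, a2, a3, a4, a5⟩, ⟨b1, b2, b3, b4⟩, ⟨c1, c2, c3⟩, ⟨d1, d2⟩, e1, -⟩ := this
  have s : ∀ {x y : G}, ¬ IsConj x y → ¬ IsConj y x := fun n c => n c.symm
  simp only [Φ, classInd, Pi.add_apply, Pi.smul_apply, smul_eq_mul, IsConj.refl, b1, b2, b3, b4, c1, c2, c3, d1, d2, e1, s a1, s a2, s a3,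
    s a4, s a5, s b1, s b2, s b3, s b4, s c1, s c2, s c3, s d1, s d2, s e1, if_true, if_false, mul_one, mul_zero, add_zero, zero_add, and_self]

theorem gen (k : ∀ χ, IsIrrCharacter G χ → ∃ n : ℤ, classInner χ (Φ t a b v1 v2 v3 v4 v5) = n) :
    IsGeneralizedCharacter G (Φ t a b v1 v2 v3 v4 v5) :=
  isGen_of_inner class_Φ fun χ i => (k χ i).imp fun n e => by rw [← inner_conj_symm, e, map_intCast]

theorem ints {ζ ω : ℂ} (hζ : ζ ^ 4 = -1) (hω : ω ^ 2 + ω + 1 = 0) {χ : G → ℂ} (i : IsIrrCharacter G χ) : ∃ m0 m4 m2 m1 m5 k : ℤ,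
    χ 1 + χ t + 2 * χ (a ^ 2) + 2 * χ a + 2 * χ (a ^ 5) = 8 * m0 ∧ χ 1 + χ t + 2 * χ (a ^ 2) - 2 * χ a - 2 * χ (a ^ 5) = 8 * m4 ∧
    χ 1 + χ t - 2 * χ (a ^ 2) = 8 * m2 ∧ χ 1 - χ t + (ζ + ζ ^ 3) * (χ a - χ (a ^ 5)) = 8 * m1 ∧
    χ 1 - χ t - (ζ + ζ ^ 3) * (χ a - χ (a ^ 5)) = 8 * m5 ∧ χ t - χ b = 3 * k := by
  have c := irr_char i
  have l := irr_class i
  obtain ⟨m0, e0⟩ := cyc_int c h.a8 (ζ := 1) (by norm_num)
  obtain ⟨m4, e4⟩ := cyc_int c h.a8 (ζ := -1) (by norm_num)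
  obtain ⟨m2, e2⟩ := cyc_int c h.a8 (ζ := ζ ^ 2) (by linear_combination (ζ ^ 12 - ζ ^ 8 + ζ ^ 4 - 1) * hζ)
  obtain ⟨m1, e1⟩ := cyc_int c h.a8 (ζ := ζ) (by linear_combination (ζ ^ 4 - 1) * hζ)
  obtain ⟨m5, e5⟩ := cyc_int c h.a8 (ζ := -ζ) (by linear_combination (ζ ^ 4 - 1) * hζ)
  obtain ⟨n, f⟩ := cyc_int c h.b6 (ζ := ω) (by linear_combination (ω ^ 4 - ω ^ 3 + ω - 1) * hω)
  obtain ⟨n', f'⟩ := cyc_int c h.b6 (ζ := -ω) (by linear_combination (ω ^ 4 - ω ^ 3 + ω - 1) * hω)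
  simp only [sum_range_succ, sum_range_zero, pow_zero, pow_one, h.a4, h.b3, ← class_isConj l h.c3, ← class_isConj l h.c6,
    ← class_isConj l h.c7, ← class_isConj l h.c5, Nat.cast_ofNat] at e0 e4 e2 e1 e5 f f'
  refine ⟨m0, m4, m2, m1, m5, n - n', by linear_combination e0, by linear_combination e4, ?_, ?_, ?_, ?_⟩
  · linear_combination e2 - (χ a * ζ ^ 2 + χ (a ^ 2) * (ζ ^ 8 - ζ ^ 4 + 2) + χ t * (ζ ^ 4 - 1) + χ (a ^ 5) * ζ ^ 10) * hζ
  · linear_combination e1 - (χ (a ^ 2) * ζ ^ 2 + χ t + χ (a ^ 5) * (ζ + ζ ^ 3)) * hζ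
  · linear_combination e5 - (χ (a ^ 2) * ζ ^ 2 + χ t - χ (a ^ 5) * (ζ + ζ ^ 3)) * hζ
  · push_cast
    linear_combination (f - f') / 2 - (χ t * (ω - 1) + χ b * (ω ^ 3 - ω ^ 2 + 1)) * hω

theorem card : Nat.card G = 5616 ∨ Nat.card G = 7920 := by
  obtain ⟨ζ, hζ⟩ := IsAlgClosed.exists_pow_nat_eq (-1 : ℂ) (n := 4) (by norm_num)
  obtain ⟨r, hr⟩ := IsAlgClosed.exists_pow_nat_eq (-3 : ℂ) (n := 2) (by norm_num)
  have I := fun χ => h.ints (χ := χ) hζ (ω := (r - 1) / 2) (by linear_combination hr / 4)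
  have s2 : (ζ + ζ ^ 3) ^ 2 = -2 := by linear_combination (ζ ^ 2 + 2) * hζ
  generalize ζ + ζ ^ 3 = s at I s2
  have sc : conj s = -s := by
    have a := congrArg Complex.re s2
    have b := congrArg Complex.im s2
    simp [sq] at a b
    have : s.re = 0 := by_contra fun c => by
      have : s.im = 0 := by
        have : s.re * s.im = 0 := by linarith
        exact (mul_eq_zero.1 this).resolve_left c
      rw [this] at a; nlinarith
    exact Complex.ext (by simp [this]) (by simp)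
  have i := fun {v1 v2 v3 v4 v5 : ℂ} {ψ} => h.inner (v1 := v1) (v2 := v2) (v3 := v3) (v4 := v4) (v5 := v5) (ψ := ψ)
  have v := fun {v1 v2 v3 v4 v5 : ℂ} => h.val (v1 := v1) (v2 := v2) (v3 := v3) (v4 := v4) (v5 := v5)
  have j : ∀ {v1 v2 v3 v4 v5 w1 w2 w3 w4 w5 : ℂ}, classInner (Φ t a b w1 w2 w3 w4 w5) (Φ t a b v1 v2 v3 v4 v5) =
      conj v1 / 48 * w1 + conj v2 / 8 * w2 + conj v3 / 8 * w3 + conj v4 / 8 * w4 + conj v5 / 6 * w5 := by
    intros; rw [i class_Φ, v.2.1, v.2.2.1, v.2.2.2.1, v.2.2.2.2.1, v.2.2.2.2.2]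
  have o := class_const (G := G) 1
  obtain ⟨x, w, p, q, r, hx, hw, hp, hq, hr, e1, e2, e3, t1, t2, t3, t4, t5⟩ := decomp (t := t) (B := Φ t a b 4 2 (-s) s (-2))
    (B' := Φ t a b 4 2 s (-s) (-2)) (C := Φ t a b 0 4 2 2 0) (D := Φ t a b 0 4 (-2) (-2) 0) (E := Φ t a b (-8) 0 2 2 (-2))
    (h.gen fun χ c => by
      obtain ⟨m0, m4, m2, m1, m5, k, f0, f4, f2, f1, f5, g⟩ := I χ c
      exact ⟨m1 - m2 + k, by rw [i (irr_class c)]; simp only [map_neg, map_ofNat, sc]; push_cast; linear_combination (f1 - f2) / 8 + g / 3⟩)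
    (h.gen fun χ c => by
      obtain ⟨m0, m4, m2, m1, m5, k, f0, f4, f2, f1, f5, g⟩ := I χ c
      exact ⟨m5 - m2 + k, by rw [i (irr_class c)]; simp only [map_neg, map_ofNat, sc]; push_cast; linear_combination (f5 - f2) / 8 + g / 3⟩)
    (h.gen fun χ c => by
      obtain ⟨m0, m4, m2, m1, m5, k, f0, f4, f2, f1, f5, g⟩ := I χ c
      exact ⟨m0 - m2, by rw [i (irr_class c)]; simp only [map_zero, map_ofNat]; push_cast; linear_combination (f0 - f2) / 8⟩)
    (h.gen fun χ c => by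
      obtain ⟨m0, m4, m2, m1, m5, k, f0, f4, f2, f1, f5, g⟩ := I χ c
      exact ⟨m4 - m2, by rw [i (irr_class c)]; simp only [map_zero, map_neg, map_ofNat]; push_cast; linear_combination (f4 - f2) / 8⟩)
    (h.gen fun χ c => by
      obtain ⟨m0, m4, m2, m1, m5, k, f0, f4, f2, f1, f5, g⟩ := I χ c
      exact ⟨m1 + m5 - m4 - m2 + k, by
        rw [i (irr_class c)]; simp only [map_zero, map_neg, map_ofNat]; push_cast; linear_combination (f1 + f5 - f4 - f2) / 8 + g / 3⟩)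
    v.1 v.1 v.1 v.1 v.1 (by rw [i o]; simp only [map_neg, map_ofNat, sc]; ring) (by rw [i o]; simp only [map_neg, map_ofNat, sc]; ring)
    (by rw [i o]; simp only [map_zero, map_ofNat]; ring) (by rw [i o]; simp only [map_zero, map_neg, map_ofNat]; ring)
    (by rw [i o]; simp only [map_zero, map_neg, map_ofNat]; ring)
    (by rw [j]; simp only [map_neg, map_ofNat, sc]; linear_combination -s2 / 4)
    (by rw [j]; simp only [map_neg, map_ofNat, sc]; linear_combination -s2 / 4)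
    (by rw [j]; simp only [map_neg, map_ofNat, sc]; linear_combination s2 / 4)
    (by rw [j]; simp only [map_zero, map_ofNat]; ring) (by rw [j]; simp only [map_zero, map_ofNat]; ring)
    (by rw [j]; simp only [map_zero, map_ofNat]; ring) (by rw [j]; simp only [map_zero, map_neg, map_ofNat]; ring)
    (by rw [j]; simp only [map_zero, map_neg, map_ofNat]; ring) (by rw [j]; simp only [map_zero, map_neg, map_ofNat]; ring)
    (by rw [j]; simp only [map_zero, map_neg, map_ofNat]; ring) (by rw [j]; simp only [map_zero, map_neg, map_ofNat]; ring)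
    (by rw [j]; simp only [map_zero, map_neg, map_ofNat]; ring) (by rw [j]; simp only [map_zero, map_neg, map_ofNat]; ring)
    (by rw [j]; simp only [map_zero, map_neg, map_ofNat]; ring) (by rw [j]; simp only [map_zero, map_neg, map_ofNat]; ring)
    fun χ c => by simp only [i (gen_class c), map_zero, map_neg, map_ofNat, sc]; ring
  have N : ∀ {v1 v2 v3 v4 v5 : ℂ}, ∑ y, NI t y * Φ t a b v1 v2 v3 v4 v5 y = Nat.card G * (v1 / 4 + v2 / 2 + v5) := by
    intros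
    simp only [mul_comm (NI t _ : ℂ), h.sum (class_NI t), h.n1, h.n2, h.n3, h.n4, h.n5]
    push_cast; ring
  have g := (centralizer {t}).index_mul_card
  have z1 := e1 ▸ (v.1 : Φ t a b 0 4 2 2 0 1 = 0)
  have z2 := e2 ▸ (v.1 : Φ t a b 0 4 (-2) (-2) 0 1 = 0)
  have z3 := e3 ▸ (v.1 : Φ t a b (-8) 0 2 2 (-2) 1 = 0)
  have y1 := e1 ▸ (N : ∑ y, NI t y * Φ t a b 0 4 2 2 0 y = _)
  have y2 := e2 ▸ (N : ∑ y, NI t y * Φ t a b 0 4 (-2) (-2) 0 y = _)
  have y3 := e3 ▸ (N : ∑ y, NI t y * Φ t a b (-8) 0 2 2 (-2) y = _)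
  have s0 := sum_NI_sirr t (Or.inl isIrr_one)
  simp only [Pi.add_apply, Pi.sub_apply, mul_add, mul_sub, sum_add_distrib, sum_sub_distrib, s0, sum_NI_sirr t hx, sum_NI_sirr t hw,
    sum_NI_sirr t hp, sum_NI_sirr t hq, sum_NI_sirr t hr, t1, t2, t3, t4, t5, ← g, h.k1] at z1 z2 z3 y1 y2 y3
  obtain ⟨d, hd⟩ := gen_one_int hx.gen
  obtain ⟨e, he⟩ := gen_one_int hp.gen
  have u1 := hx.one_ne_zero
  have u2 := hw.one_ne_zero
  have u3 := hp.one_ne_zero
  have u4 := hq.one_ne_zero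
  have u5 := hr.one_ne_zero
  rw [show w 1 = -(d + 1) by linear_combination z1 - hd] at *
  rw [show q 1 = -(d + e) by linear_combination z2 - hd - he] at *
  rw [show r 1 = e + (d + 1) by linear_combination z3 + he] at *
  rw [hd] at u1 y1 y2
  rw [he] at u3 y2 y3
  rw [neg_ne_zero] at u2 u4
  have n0 : ((centralizer {t}).index : ℂ) ≠ 0 := Nat.cast_ne_zero.2 FiniteIndex.index_ne_zero
  have od := h.odd
  rw [h.k1] at g
  generalize (centralizer {t}).index = n at *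
  push_cast at y1 y2 y3
  have := num (n := n) (d := d) (e := e) (by omega) (by
      field_simp at y1; exact_mod_cast (by linear_combination y1 / 8 : (n : ℂ) * (d - 2) ^ 2 = 96 * d * (d + 1))) (by
      field_simp at y2; exact_mod_cast (by linear_combination y2 / 8 : (n : ℂ) * (2 * e - d) ^ 2 = 96 * d * e * (d + e))) (by
      field_simp at y3; exact_mod_cast (by linear_combination -y3 / 8 : (n : ℂ) * (3 * e - (d + 1)) ^ 2 = 192 * e * (d + 1) * (e + (d + 1))))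
  omega

end W
end WG
end H3
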