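import Cfsg.Agent.H3.W2
import Cfsg.Agent.H3.Dih

/-!
H3.W3: involution centralizer `GL(2, 3)`, the local data.
-/

set_option autoImplicit false
open Cfsg Subgroup Finset

namespace H3
namespace WG

/-- `GL(2, 3)` -/
abbrev Γ := GL (Fin 2) (ZMod 3)

/-- its matrix ring -/
abbrev Mx := Matrix (Fin 2) (Fin 2) (ZMod 3)

/-- an element of order 8 -/
def ga : Γ := ⟨!![1, 1; 1, 0], !![0, 1; 1, 2], by decide, by decide⟩

/-- an element of order 6 -/
def gb : Γ := ⟨!![2, 2; 0, 2], !![2, 1; 0, 2], by decide, by decide⟩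

theorem detΓ (x : Γ) : x.1 0 0 * x.1 1 1 - x.1 0 1 * x.1 1 0 ≠ 0 := Matrix.det_fin_two x.1 ▸ x.det_ne_zero

theorem cardΓ (Q : Γ → Prop) (P : Mx → Prop) [DecidablePred P] (h : ∀ x, Q x ↔ P x.1) :
    Nat.card {x // Q x} = Fintype.card {m : Mx // m 0 0 * m 1 1 - m 0 1 * m 1 0 ≠ 0 ∧ P m} := by
  rw [← Nat.card_eq_fintype_card]
  exact Nat.card_congr ⟨fun x => ⟨x.1.1, detΓ x.1, (h _).1 x.2⟩,
    fun m => ⟨Matrix.GeneralLinearGroup.mkOfDetNeZero m.1 (Matrix.det_fin_two m.1 ▸ m.2.1), (h _).2 m.2.2⟩, fun _ => Subtype.ext (Units.ext rfl),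
    fun _ => rfl⟩

theorem cenΓ (y : Γ) : Nat.card (centralizer {y}) = Fintype.card {m : Mx // m 0 0 * m 1 1 - m 0 1 * m 1 0 ≠ 0 ∧ m * y.1 = y.1 * m} :=
  cardΓ _ _ fun _ => mem_centralizer_singleton_iff.trans Units.ext_iff

theorem niΓ (z : Γ) : Nat.card {u : Γ // (u * u = 1 ∧ u ≠ 1) ∧ u * z * (u * z) = 1 ∧ u * z ≠ 1} =
    Fintype.card {u : Mx // u 0 0 * u 1 1 - u 0 1 * u 1 0 ≠ 0 ∧ (u * u = 1 ∧ u ≠ 1) ∧ u * z.1 * (u * z.1) = 1 ∧ u * z.1 ≠ 1} :=
  cardΓ _ _ fun _ => by simp only [Units.ext_iff, ne_eq, Units.val_mul, Units.val_one]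

theorem ncΓ : List.Pairwise (fun y z : Γ => ∀ m : Mx, m * y.1 = z.1 * m → m 0 0 * m 1 1 - m 0 1 * m 1 0 = 0) [-1, ga ^ 2, ga, ga ^ 5, gb] := by
  decide +kernel

theorem zΓ (x : Γ) (h : x * ga = ga * x) (h2 : x * x = 1) (h1 : x ≠ 1) : x = -1 :=
  Units.ext ((show ∀ m : Mx, m * ga.1 = ga.1 * m → m * m = 1 → m ≠ 1 → m = -1 by decide +kernel) x.1 (congrArg Units.val h)
    (congrArg Units.val h2) fun e => h1 (Units.ext e))

variable {G : Type*} [Group G] [Finite G] {t g : G} {f : Γ →* G} {y z : Γ}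

/-- the embedding of `GL(2, 3)` as the centralizer of `t` -/
structure V (f : Γ →* G) (t : G) : Prop where
  inj : Function.Injective f
  mem : ∀ {g}, g ∈ centralizer {t} ↔ ∃ x, f x = g
  neg : f (-1) = t
  ot : orderOf t = 2

theorem exV (ht : orderOf t = 2) (e : centralizer {t} ≃* Γ) : ∃ f, V f t := by
  have m : t ∈ centralizer {t} := mem_centralizer_singleton_iff.2 rfl
  refine ⟨(centralizer {t}).subtype.comp e.symm.toMonoidHom, Subtype.val_injective.comp e.symm.injective,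
    ⟨fun a => ⟨e ⟨_, a⟩, by simp⟩, fun ⟨x, a⟩ => a ▸ (e.symm x).2⟩, ?_, ht⟩
  rw [← zΓ (e ⟨t, m⟩) (e.symm.injective (by
    rw [map_mul, map_mul, e.symm_apply_apply]; exact Subtype.ext (mem_centralizer_singleton_iff.1 (e.symm ga).2).symm))
    (by rw [← map_mul, e.map_eq_one_iff]; exact Subtype.ext (H1.two_sq ht))
    (by rw [ne_eq, e.map_eq_one_iff]; exact fun a => H1.two_ne ht (congrArg Subtype.val a))]
  simp

namespace V
variable (h : V f t)
include h

theorem ti (hy : -1 ∈ zpowers y) (hz : -1 ∈ zpowers z) (e : g * f y * g⁻¹ = f z) : ∃ x, f x = g ∧ x * y = z * x := by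
  obtain ⟨i, a⟩ := hy
  obtain ⟨j, b⟩ := hz
  have : g * t * g⁻¹ = t := H1.two_eq_of_mem_zpowers (r := f z) ⟨i, by simp only [← e, conj_zpow, ← map_zpow, a, h.neg]⟩
    ⟨j, by simp only [← map_zpow, b, h.neg]⟩ ((H1.orderOf_conj g t).trans h.ot) h.ot
  obtain ⟨x, rfl⟩ := h.mem.1 (mem_centralizer_singleton_iff.2 (mul_inv_eq_iff_eq_mul.1 this))
  exact ⟨x, rfl, h.inj (by rw [map_mul, map_mul, ← e, inv_mul_cancel_right])⟩

theorem cen (hy : -1 ∈ zpowers y) : Nat.card (centralizer {f y}) = Nat.card (centralizer {y}) := by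
  rw [← card_map_of_injective (K := centralizer {y}) h.inj]
  congr 2
  ext g
  rw [mem_centralizer_singleton_iff]
  refine ⟨fun a => ?_, fun ⟨x, a, b⟩ => by rw [← b, ← map_mul, mem_centralizer_singleton_iff.1 a, map_mul]⟩
  obtain ⟨x, b, c⟩ := h.ti hy hy (mul_inv_eq_iff_eq_mul.2 a)
  exact ⟨x, mem_centralizer_singleton_iff.2 c, b⟩

theorem c48 : Nat.card (centralizer {t}) = 48 := by
  rw [← h.neg, h.cen (mem_zpowers _), cenΓ]; decide +kernel

theorem ni [Fintype G] (cj : ∀ u, orderOf u = 2 → IsConj t u) (hz : -1 ∈ zpowers z) :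
    NI t (f z) = Nat.card {u : Γ // (u * u = 1 ∧ u ≠ 1) ∧ u * z * (u * z) = 1 ∧ u * z ≠ 1} := by
  classical
  have k : ∀ u, IsConj t u ↔ u * u = 1 ∧ u ≠ 1 := fun u => ⟨fun a => by
    obtain ⟨c, rfl⟩ := isConj_iff.1 a
    have := (H1.orderOf_conj c t).trans h.ot
    exact ⟨H1.two_sq this, H1.two_ne this⟩, fun a => cj u (H1.two_of a.1 a.2)⟩
  have k2 : ∀ u : Γ, u * u = 1 ∧ u ≠ 1 ↔ IsConj t (f u) := fun u => by
    rw [k, ← map_mul, ne_eq, ne_eq, map_eq_one_iff f h.inj, map_eq_one_iff f h.inj]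
  rw [NI, ← Fintype.card_subtype, ← Nat.card_eq_fintype_card]
  symm
  refine Nat.card_eq_of_bijective (fun u => ⟨f u.1, (k2 _).1 u.2.1, by
    rw [← map_inv, inv_eq_of_mul_eq_one_left u.2.1.1, ← map_mul]; exact (k2 _).1 u.2.2⟩) ⟨fun u v e =>
      Subtype.ext (h.inj (Subtype.ext_iff.1 e)), fun ⟨u, a, b⟩ => ?_⟩
  have c := inv_eq_of_mul_eq_one_left ((k u).1 a).1
  rw [c] at b
  obtain ⟨x, rfl, -⟩ := h.ti (g := u) hz (zpowers_inv (g := z) ▸ hz) (by
    rw [c, map_inv, ← mul_eq_one_iff_eq_inv, mul_assoc, ((k _).1 b).1])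
  exact ⟨⟨x, (k2 _).2 a, (k2 _).2 (by rwa [map_mul])⟩, rfl⟩

theorem syl (hG : ∀ H : Subgroup G, H.index ≠ 2) : (centralizer {t}).index % 2 = 1 ∧ ∀ u, orderOf u = 2 → IsConj t u := by
  have a4 : ga ^ 4 = -1 := by decide
  have m : -1 ∈ zpowers ga := ⟨4, a4⟩
  have o8 : orderOf (f ga) = 2 ^ (2 + 1) := orderOf_eq_prime_pow (by rw [← map_pow, map_eq_one_iff f h.inj]; decide)
    (by rw [← map_pow, map_eq_one_iff f h.inj]; decide)
  have c8 := (Nat.card_zpowers _).trans o8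
  have tz : t ∈ zpowers (f ga) := ⟨4, by simp only [← map_zpow]; exact h.neg ▸ congrArg f a4⟩
  obtain ⟨T, hT⟩ := (IsPGroup.of_card c8).exists_le_sylow
  haveI : Nontrivial T := ⟨⟨t, hT tz⟩, 1, fun e => H1.two_ne h.ot (congrArg Subtype.val e)⟩
  haveI := T.isPGroup'.center_nontrivial
  obtain ⟨⟨z, z1⟩, z2⟩ := exists_prime_orderOf_dvd_card' (G := center T) 2 (by
    obtain ⟨n, a, b⟩ := (T.isPGroup'.to_subgroup (center T)).nontrivial_iff_card.1 inferInstance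
    exact b ▸ dvd_pow_self 2 a.ne')
  rw [Subgroup.orderOf_mk, ← orderOf_coe] at z2
  obtain ⟨x, x1, x2⟩ := h.ti (g := (z : G)) m m (mul_inv_eq_iff_eq_mul.2 (show (z : G) * f ga = f ga * (z : G) from (congrArg Subtype.val (mem_center_iff.1 z1 ⟨_, hT (mem_zpowers _)⟩)).symm))
  have zt : (z : G) = t := by
    rw [← x1, zΓ x x2 (h.inj (by rw [map_mul, x1, map_one, H1.two_sq z2])) (fun e => H1.two_ne z2 (by rw [← x1, e, map_one])), h.neg]
  have l : (T : Subgroup G) ≤ centralizer {t} := fun y hy => mem_centralizer_singleton_iff.2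
    (zt ▸ congrArg Subtype.val (mem_center_iff.1 z1 ⟨y, hy⟩))
  have i1 := T.not_dvd_index
  rw [← relIndex_mul_index l] at i1
  have i2 := H1.card_mul_relIndex l
  have i3 := H1.card_mul_relIndex hT
  rw [← i3, c8, h.c48] at i2
  have i4 : (zpowers (f ga)).relIndex T = 2 := by
    obtain ⟨n, hn⟩ := IsPGroup.iff_card.1 T.isPGroup'
    have a : ¬ 2 ∣ (T : Subgroup G).relIndex (centralizer {t}) := fun a => i1 (a.mul_right _)
    have b : ¬ 3 ∣ (zpowers (f ga)).relIndex T := fun b => absurd ((Nat.prime_three.dvd_of_dvd_pow (hn ▸ i3 ▸ b.mul_left _))) (by norm_num)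
    generalize (zpowers (f ga)).relIndex T = r at *
    generalize (T : Subgroup G).relIndex (centralizer {t}) = s at *
    have : r ≤ 6 := Nat.le_of_dvd (by norm_num) ⟨s, by rw [mul_assoc] at i2; omega⟩
    interval_cases r <;> omega
  refine ⟨Nat.two_dvd_ne_zero.1 fun a => i1 (a.mul_left _), fun u o => ?_⟩
  obtain ⟨g, e⟩ := thompson (H9.syl_top_of_sylow T) hG hT i4 o
  exact (isConj_iff.2 ⟨g, H1.two_eq_of_mem_zpowers e tz ((H1.orderOf_conj g u).trans o) h.ot⟩).symm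

theorem w [Fintype G] (hG : ∀ H : Subgroup G, H.index ≠ 2) : W t (f ga) (f gb) := by
  obtain ⟨o, cj⟩ := h.syl hG
  have m0 : (-1 : Γ) ∈ zpowers (-1) := mem_zpowers _
  have m1 : -1 ∈ zpowers (ga ^ 2) := ⟨2, by decide⟩
  have m2 : -1 ∈ zpowers ga := ⟨4, by decide⟩
  have m3 : -1 ∈ zpowers (ga ^ 5) := ⟨4, by decide⟩
  have m4 : -1 ∈ zpowers gb := ⟨3, by decide⟩
  have c : ∀ (x y z : Γ), x * y = z * x → IsConj (f y) (f z) := fun x y z e => f.map_isConj (isConj_iff.2 ⟨x, mul_inv_eq_iff_eq_mul.2 e⟩)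
  let u : Γ := ⟨!![1, 0; 2, 2], !![1, 0; 2, 2], by decide, by decide⟩
  let v : Γ := ⟨!![1, 0; 0, 2], !![1, 0; 0, 2], by decide, by decide⟩
  have n : List.Pairwise (fun x y => ¬ IsConj x y) ([-1, ga ^ 2, ga, ga ^ 5, gb].map f) := by
    rw [List.pairwise_map]
    refine List.Pairwise.imp_of_mem (fun {y z} a b k e => ?_) ncΓ
    have M : ∀ y ∈ [-1, ga ^ 2, ga, ga ^ 5, gb], -1 ∈ zpowers y := by simp only [List.forall_mem_cons, m0, m1, m2, m3, m4]; simp
    obtain ⟨g, e⟩ := isConj_iff.1 e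
    obtain ⟨x, -, e⟩ := h.ti (M y a) (M z b) e
    exact detΓ x (k x.1 (congrArg Units.val e))
  refine ⟨by rw [← map_pow, map_eq_one_iff f h.inj]; decide, by rw [← map_pow, ← h.neg]; exact congrArg f (by decide),
    by rw [← map_pow, map_eq_one_iff f h.inj]; decide, by rw [← map_pow, ← h.neg]; exact congrArg f (by decide),
    by rw [← map_pow]; exact c u _ _ (by decide), by rw [← map_pow, ← map_pow]; exact c u _ _ (by decide),
    by rw [← map_pow, ← map_pow]; exact c u _ _ (by decide), by rw [← map_pow]; exact c v _ _ (by decide),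
    List.pairwise_cons.2 ⟨fun y a e => ?_, by simpa only [List.map, h.neg, map_pow] using n⟩, h.c48,
    by rw [← map_pow, h.cen m1, cenΓ]; decide +kernel, by rw [h.cen m2, cenΓ]; decide +kernel,
    by rw [← map_pow, h.cen m3, cenΓ]; decide +kernel, by rw [h.cen m4, cenΓ]; decide +kernel,
    by have := h.ni cj m0; rw [h.neg] at this; rw [this, niΓ]; decide +kernel, by rw [← map_pow, h.ni cj m1, niΓ]; decide +kernel,
    by rw [h.ni cj m2, niΓ]; decide +kernel, by rw [← map_pow, h.ni cj m3, niΓ]; decide +kernel, by rw [h.ni cj m4, niΓ]; decide +kernel, o⟩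
  rw [isConj_one_right.1 e, ← h.neg, ← map_pow, ← map_pow, ← map_one f] at a
  simp only [List.mem_cons, h.inj.eq_iff, List.not_mem_nil] at a
  revert a; decide

theorem card (hG : ∀ H : Subgroup G, H.index ≠ 2) : Nat.card G = 5616 ∨ Nat.card G = 7920 :=
  letI := Fintype.ofFinite G
  (h.w hG).card

end V
end WG
end H3
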